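import Cfsg.Agent.Am.B
import Cfsg.Agent.Am.G2

/-! Alternating subgroups of `²E₆(q)`: definitions. -/

set_option autoImplicit false

namespace CF.An

open Module Function Cfsg.Lie CF.Am

section
open CF.E83 CF.Al
variable {K W : Type*} [Field K] [AddCommGroup W] [Module K W] {S : Type*} [Group S]

/-- The fixed points on a torus, finer form. -/
structure Tq (q z k : ℕ) (T : Subgroup S) : Prop extends Tk q z k T where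
  ab : ∀ s ∈ T, ∀ t ∈ T, Commute s t
  md : ∃ d n, d ∣ z ∧ k ≤ n ∧ (q - 1) ^ n ≤ d * Nat.card T ∧ d * Nat.card T ≤ (q + 1) ^ n ∧
    (d * Nat.card T ≡ 1 [MOD q] ∨ d * Nat.card T + 1 ≡ 0 [MOD q])

/-- Central tori of centralizers. -/
structure TV (q z : ℕ) (l : S →* End K W) : Prop where
  u2 : (2 : K) ≠ 0 → ∀ x, x ^ 2 = 1 → dm l x = 46 →
    ∃ T, Tq q z 1 T ∧ Zs l x T ∧ ∀ g, Commute g x → ∀ s ∈ T, Commute g s
  u3 : (3 : K) ≠ 0 → ∀ x, x ^ 3 = 1 → Re x → dm l x = 30 → ∃ T, Tq q z 2 T ∧ Zs l x T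
  u5 : (5 : K) ≠ 0 → ∀ x, x ^ 5 = 1 → Re x → dm l x = 18 → ∃ T, Tq q z 3 T ∧ Zs l x T
  u7 : (7 : K) ≠ 0 → ∀ x, x ^ 7 = 1 → x ≠ 1 → IsConj x (x ^ 2) →
    (∃ T, Tq q z 2 T ∧ Zs l x T) ∧ (dm l x = 12 → ∃ T, Tq q z 4 T ∧ Zs l x T)
  u22 : (2 : K) ≠ 0 → ∀ x y, x ^ 2 = 1 → y ^ 2 = 1 → Commute x y → dm l x = 46 → dm l y = 46 →
    dm l (x * y) = 46 → ∃ T, Tq q z 2 T ∧ ∀ s ∈ T, Commute s x ∧ Commute s y ∧
      fs (l x) ⊓ fs (l y) ≤ fs (l s) ∧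
      LinearMap.range (l s - 1) ≤ LinearMap.range (l x - 1) ⊔ LinearMap.range (l y - 1)

/-- The subgroup has new fixed or cofixed points. -/
def Nw (l : S →* End K W) {A : Type*} [Group A] (j : A →* S) : Prop :=
  Fx (l.comp j) ≠ Fx l ∨ Cx (l.comp j) ≠ Cx l

/-- `(0 1)(2 3)`. -/
def s5 : An 5 := ap ![1, 0, 3, 2, 4] ![1, 0, 3, 2, 4]
/-- `(0 2)(1 3)`. -/
def t5 : An 5 := ap ![2, 3, 0, 1, 4] ![2, 3, 0, 1, 4]

end

section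
open CF.Chev CF.BN CF.E83 Matrix
open CF.Geom.E6 (wt)

variable {p q z : ℕ} [Fact p.Prime] {X : Type*} [Group X] (L : LS cE6 pE6 p q z X)

/-- The finite universal group. -/
abbrev Yg := BN.Fx L.T.σ

/-- Restriction to the finite group. -/
abbrev rY {M : Type*} [Monoid M] (R : L.G →* M) : Yg L →* M := R.comp (Yg L).subtype

/-- A conjugated torus element. -/
noncomputable abbrev tc (g : L.G) (c : Fin 6 → L.Kˣ) : L.G := g * L.h.r3.tor c * g⁻¹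

/-- The two modules of dimension `27`. -/
structure Sd (R R' : L.G →* End L.K (N L.K)) (ε : ℤ) : Prop where
  sg : ε = 1 ∨ ε = -1
  jp : JP R R'
  tor : ∀ c a, R (L.h.r3.tor c) (Pi.single a 1) =
    ((∏ i, c i ^ (ε * wt a i) : L.Kˣ) : L.K) • (Pi.single a 1 : N L.K)
  tor' : ∀ c a, R' (L.h.r3.tor c) (Pi.single a 1) =
    ((∏ i, c i ^ (-ε * wt a i) : L.Kˣ) : L.K) • (Pi.single a 1 : N L.K)
  rt : ∀ (g : Yg L) a b, R g (Pi.single a 1) b ^ q ^ 2 = R g (Pi.single a 1) b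
  rt' : ∀ (g : Yg L) a b, R' g (Pi.single a 1) b ^ q ^ 2 = R' g (Pi.single a 1) b
  irr : Irr (rY L R)
  irr' : Irr (rY L R')
  cen : ∀ g ∈ Subgroup.center L.G, ∃ a : L.K, a ^ 3 = 1 ∧ (g ≠ 1 → a ≠ 1) ∧ ∀ v, R g v = a • v
  cen' : ∀ g ∈ Subgroup.center L.G, ∃ a : L.K, a ^ 3 = 1 ∧ (g ≠ 1 → a ≠ 1) ∧ ∀ v, R' g v = a • v

/-- The adjoint module with its semilinear map. -/
structure Ld (f : L.G →* GL (Fin 6 ⊕ Fin 72) L.K) (l : X →* End L.K (LA L.K))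
    (Φ : LA L.K →+ LA L.K) : Prop where
  hf : L.ρ.IsAdHom f
  eq : ∀ y : Yg L, l (L.θ y) = X3.Ad f y
  sm : ∀ (a : L.K) v, Φ (a • v) = a ^ q • Φ v
  inj : Injective Φ
  fr : ∀ g v, X3.Ad f (L.T.σ g) (Φ v) = Φ (X3.Ad f g v)
  br : ∀ g u v, X3.Ad f g (bk L.K u v) = bk L.K (X3.Ad f g u) (X3.Ad f g v)
  alt : ∀ u, bk L.K u u = 0
  fx : finrank L.K (Al.Fx l) ≤ 1
  fx' : (3 : L.K) ≠ 0 → Al.Fx l = ⊥
  cx : Al.Cx l = ⊤
  irr : (5 : L.K) = 0 → Irr l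

variable {L}

theorem Sd.symm {R R' : L.G →* End L.K (N L.K)} {ε : ℤ} (h : Sd L R R' ε) : Sd L R' R (-ε) :=
  ⟨by have := h.sg; omega, h.jp.symm, h.tor', by simpa using h.tor, h.rt', h.rt, h.irr', h.irr,
    h.cen', h.cen⟩

theorem Sd.sc {R R' : L.G →* End L.K (N L.K)} {ε : ℤ} (S : Sd L R R' ε) (g : Yg L) (h : L.θ g = 1) :
    ∃ a : L.K, a ^ 3 = 1 ∧ (g ≠ 1 → a ≠ 1) ∧ ∀ v, rY L R g v = a • v :=
  (S.cen g ((L.ker g).1 h)).imp fun _ e => ⟨e.1, fun n => e.2.1 fun k => n (Subtype.ext k), e.2.2⟩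

variable (L) in
theorem ce (hz : z = Nat.gcd 3 (q + 1)) : Ce z L.θ :=
  ⟨L.surj, fun g h => Subgroup.mem_center_iff.2 fun a => Subtype.ext
    (Subgroup.mem_center_iff.1 ((L.ker g).1 h) a), L.card_ker, hz ▸ Nat.gcd_dvd_left _ _⟩

end

end CF.An
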