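import Cfsg.Agent.An.L32
import Cfsg.Agent.Am.C5

/-! `A₇` in characteristic five. -/

set_option autoImplicit false

namespace CF.An

open Module Function Cfsg.Lie CF.E83 CF.Al CF.Am CF.Al.C3

namespace C7q

theorem gen7 (H : Subgroup A7) (a : T ∈ H) (b : el 1131 ∈ H) : H = ⊤ := by
  have e : T * el 1131 * el 1131 * el 1131 * T * el 1131 * el 1131 * T * el 1131 = U :=
    cd_inj (by simp only [cd_mul, T, U, cd_el]; decide +kernel)
  generalize el 1131 = y at *
  refine gen H a (e ▸ ?_)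
  generalize T = z at *
  repeat (first | assumption | apply mul_mem)

theorem e1 : T * el 1131 = el 2069 := cd_inj (by simp only [cd_mul, T, cd_el]; decide +kernel)
theorem c1 : IsConj ((T * U) ^ 3) (el 1131) := eW3 ▸ C7.cc' (by decide +kernel)
theorem c2 : IsConj (T * U) (el 2069) := eW ▸ C7.cc' (by decide +kernel)

theorem re {S : Type*} [Group S] {x : S} (e : x ^ 3 = 1) (c : IsConj x (x ^ 2)) : Re x := by
  rwa [Re, inv_eq_of_mul_eq_one_left ((pow_succ _ 2).symm.trans e)]

end C7q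

open C7q

variable {K W : Type*} [Field K] [AddCommGroup W] [Module K W] [FiniteDimensional K W] [IsAlgClosed K] {q : ℕ}

theorem c7q {r r' : An 7 →* End K (N K)} {l : An 7 →* End K W} (h : HN q r r' l) (h5 : (5 : K) = 0)
    (d : dm l C7.Z ≠ 30) : dm l (C3.T * C3.U) = 12 := by
  have h2 : (2 : K) ≠ 0 := fun e => one_ne_zero (α := K) (by linear_combination h5 - 2 * e)
  have h3 : (3 : K) ≠ 0 := fun e => h2 (by linear_combination h5 - e)
  have h7 : (7 : K) ≠ 0 := fun e => h2 (by linear_combination e - h5)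
  have s1 := h.sco C7.gen'
  have s2 := h.sco gen7
  have dr := h.tb.dr
  have u := C5.un r 1 Nat.prime_five (by exact_mod_cast h5) C7.W5
  have a := h.tb.t3 h3 _ C7.Z3 C7.Z1 (re C7.Z3 C7.cZ)
  have b := h.tb.n3 h3 _ C7.Z3 C7.Z1 (re C7.Z3 C7.cZ)
  have c := h.tb.n7 h7 _ W7 W1 cW2
  have e := h.tb.n2 h2 _ T_2 T1
  have f := l32 h.tb.toTL h5
  have g := dm_le_pow (r := r) (T * U) 3
  rw [e1, ← dm_conj c1, ← dm_conj c2] at s2
  rw [← dm_conj C7.c398] at s1
  omega

end CF.An
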