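import Cfsg.Agent.An.A
import Cfsg.Agent.Am.CG
import Cfsg.Agent.Al.C7

/-! Centralizers in a group with alternating socle, finer bounds. -/

set_option autoImplicit false

namespace CF.An

open Function Subgroup CF.Al CF.Am CF.Am.CG Equiv Equiv.Perm CF.Perm

variable {X : Type*} [Group X] [Finite X] {H T : Subgroup X}

namespace CG

omit [Finite X] in
/-- The centralizer of a three-cycle embeds into the symmetric group. -/
theorem emb3 {j : An 6 →* X} (M : Mx H j) (le : T ≤ H) {x : An 6} (h3 : x.1.IsThreeCycle)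
    (c : ∀ s ∈ T, Commute s (j x)) : ∃ f : T →* Perm (Fin 6), Injective f ∧ ∀ s, Commute (f s) x.1 := by
  obtain ⟨φ, hφ⟩ := act M
  have ci := conjNormal_alt_injective (Ω := Fin 6) (by simp)
  let ψ := φ.comp (inclusion le)
  have k : ∀ s, ψ s x = x := fun s =>
    M.inj ((hφ (inclusion le s) x).trans (mul_inv_eq_iff_eq_mul.2 (c s s.2)))
  obtain ⟨θ, hθ⟩ := exists_outer (Ω := Fin 6) (by simp)
  have m : ∀ s, ψ s ∈ (MulAut.conjNormal : Perm (Fin 6) →* MulAut (An 6)).range := fun s => by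
    obtain ⟨σ, h | h⟩ := aut_alt_six (Ω := Fin 6) (by simp) (θ := resAlt θ) (fun c hc => hθ c hc) (ψ s)
    · exact ⟨σ, h.symm⟩
    refine (hθ (σ * x * σ⁻¹) (cycleType_conj.trans h3) ?_).elim
    have := congrArg Subtype.val (k s)
    rw [h] at this
    exact (congrArg cycleType this).trans h3
  have e : ∀ s, MulAut.conjNormal ((MonoidHom.ofInjective ci).symm (ψ.codRestrict _ m s)) = ψ s :=
    fun s => MonoidHom.apply_ofInjective_symm ci _
  refine ⟨(MonoidHom.ofInjective ci).symm.toMonoidHom.comp (ψ.codRestrict _ m),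
    (injective_iff_map_eq_one _).2 fun s (h : (MonoidHom.ofInjective ci).symm _ = 1) => ?_, fun s => ?_⟩
  · have := e s
    rw [h, map_one] at this
    refine Subtype.ext (M.cen _ (le s.2) fun g => ?_)
    have k := hφ (inclusion le s) g
    rw [show φ (inclusion le s) = 1 from this.symm] at k
    exact eq_mul_inv_iff_mul_eq.1 k
  · have k := k s
    rw [← e] at k
    exact mul_inv_eq_iff_eq_mul.1 (congrArg Subtype.val k)

theorem c18 {A P : Type*} [Group A] [Group P] [Finite P] {f : A →* P} (i : Injective f)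
    (ab : ∀ s t : A, Commute s t) {y a b : P} (c : ∀ s, Commute (f s) y)
    (d : Nat.card (centralizer {y}) = 18) (h : a * y = y * a ∧ b * y = y * b ∧ a * b ≠ b * a) :
    Nat.card A ≤ 9 ∧ Nat.card A ∣ 18 := by
  have le : f.range ≤ centralizer {y} := fun _ ⟨s, e⟩ => e ▸ mem_centralizer_singleton_iff.2 (c s)
  have e := Nat.card_congr (MonoidHom.ofInjective i).toEquiv
  have v := card_dvd_of_le le
  rw [← e, d] at v
  refine ⟨not_lt.1 fun l => ?_, v⟩
  have := Nat.le_of_dvd (by decide) v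
  have k := eq_of_le_of_card_ge le (by
    rw [← e, d]
    generalize Nat.card A = m at *
    interval_cases m <;> omega)
  obtain ⟨s, rfl⟩ := k.ge (mem_centralizer_singleton_iff.2 h.1)
  obtain ⟨t, rfl⟩ := k.ge (mem_centralizer_singleton_iff.2 h.2.1)
  exact h.2.2 ((ab s t).map f)

theorem dv {A : Type*} [Group A] [Finite A] {C : Subgroup A} {g : A} (m : g ∈ C) {k : ℕ}
    (o : orderOf g = k) {n : ℕ} (l : Nat.card C ≤ n) (h : ∀ i ≤ n, k ∣ i → i = 0 ∨ i ∣ n) :
    Nat.card C ∣ n :=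
  (h _ l (o ▸ orderOf_dvd_natCard C m)).resolve_left Nat.card_pos.ne'

end CG

open CG

theorem card2 {n : ℕ} (h5 : 5 ≤ n) (h6 : n ≠ 6) {j : An n →* X} (M : Mx H j) :
    Nat.card H ≤ n.factorial := by
  have := (card_dvd h5 M le_rfl ⊤ fun _ _ _ _ => mem_top _).2 h6
  rw [card_top, Nat.card_perm, Nat.card_eq_fintype_card (α := Fin n), Fintype.card_fin] at this
  exact Nat.le_of_dvd n.factorial_pos this

theorem inv5 {t : An 5} (e : t ^ 2 = 1) (n1 : t ≠ 1) :
    IsConj t s5 ∧ IsConj t t5 ∧ IsConj t (s5 * t5) := by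
  have h : IsConj t s5 := by
    obtain ⟨τ, h⟩ := isConj_iff.1 (isConj_iff_cycleType_eq.2
      ((ct2 (by omega) e n1).trans (ct2 (t := s5) (by omega) (by decide) (by decide)).symm))
    rcases Int.units_eq_one_or (sign τ) with k | k
    · exact isConj_iff.2 ⟨⟨τ, k⟩, Subtype.ext h⟩
    refine isConj_iff.2 ⟨⟨swap 0 1 * τ, mem_alternatingGroup.2 (by simp [k])⟩, Subtype.ext ?_⟩
    change swap 0 1 * τ * t.1 * (swap 0 1 * τ)⁻¹ = s5.1
    rw [mul_inv_rev, mul_assoc _ τ, ← mul_assoc, mul_assoc _ _ τ⁻¹, h]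
    decide
  let c : An 5 := ap ![0, 2, 3, 1, 4] ![0, 3, 1, 2, 4]
  exact ⟨h, h.trans (isConj_iff.2 ⟨c, by decide⟩), h.trans (isConj_iff.2 ⟨c * c, by decide⟩)⟩

theorem cenV5 {j : An 5 →* X} (M : Mx H j) (le : T ≤ H)
    (c : ∀ s ∈ T, Commute s (j s5) ∧ Commute s (j t5)) : Nat.card T ≤ 4 := by
  have a := (card_dvd (by omega) M le (centralizer {s5.1} ⊓ centralizer {t5.1}) fun s hs σ h =>
    ⟨mem_centralizer_singleton_iff.2 (h _ (c s hs).1),
      mem_centralizer_singleton_iff.2 (h _ (c s hs).2)⟩).2 (by omega)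
  have b := card_le (centralizer {s5.1} ⊓ centralizer {t5.1}) 0 4
    (fun x => s5.1 x.1 ≠ x.1 ∧ s5.1 x.2 = x.2)
    (fun σ h => ⟨(mv h.1 0).not.2 (by decide), (mv h.1 4).2 rfl⟩) fun σ h e0 e4 => by
      have e1 : σ 1 = 1 := fx h.1 e0
      have e2 : σ 2 = 2 := fx h.2 e0
      have e3 : σ 3 = 3 := fx h.2 e1
      ext i
      fin_cases i <;> simp [e0, e1, e2, e3, e4]
  exact (Nat.le_of_dvd Nat.card_pos a).trans (b.trans (by decide))

theorem cenA6 {j : An 6 →* X} (M : Mx H j) (le : T ≤ H) (ab : ∀ s ∈ T, ∀ t ∈ T, Commute s t)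
    (c : ∀ s ∈ T, Commute s (j x6)) : Nat.card T ≤ 9 ∧ Nat.card T ∣ 18 := by
  have h : x6.1.IsThreeCycle := card_support_eq_three_iff.1 (by decide)
  obtain ⟨f, i, k⟩ := emb3 M le h c
  exact c18 i (fun s t => Subtype.ext (ab s s.2 t t.2)) k (cc (k := 0) h) (a := y6.1) (b := swap 3 4)
    (by decide)

theorem cenZ7 {j : An 7 →* X} (M : Mx H j) (le : T ≤ H) (ab : ∀ s ∈ T, ∀ t ∈ T, Commute s t)
    (c : ∀ s ∈ T, Commute s (j C7.Z)) : Nat.card T ≤ 9 ∧ Nat.card T ∣ 18 := by
  obtain ⟨U, f, i, -, u, h⟩ := emb (by omega) M le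
  obtain rfl := u (by omega)
  obtain ⟨k, e, l⟩ := ct (y := C7.Z) Nat.prime_three (by decide +kernel) (by decide +kernel)
  obtain rfl : k = 1 := by
    have := sum_cycleType C7.Z.1
    rw [e, Multiset.sum_replicate, show C7.Z.1.support.card = 6 by decide +kernel, smul_eq_mul] at this
    omega
  rw [← card_top (G := T)]
  exact c18 i (fun s t => Subtype.ext (Subtype.ext (ab _ s.1.2 _ t.1.2))) (fun s => h s _ (c _ s.1.2))
    (cc e) (a := swap 0 6 * swap 0 5) (b := swap 0 1 * swap 5 2 * swap 6 3) (by decide +kernel)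

theorem zup : IsConj (up (x6 * y6)) C7.Z := C3.cj_of 994 (by decide +kernel)

theorem cenS {j : An 7 →* X} (M : Mx H j) (le : T ≤ H)
    (c : ∀ s ∈ T, Commute s (j (up s6)) ∧ Commute s (j (up t6 * x7))) : Nat.card T ∣ 12 ∧
      ((∀ s ∈ T, Commute s (j (up x6))) → Nat.card T ∣ 3) ∧
      ∀ s ∈ T, s ^ 3 = 1 → s ∈ Subgroup.zpowers (j x7) := by
  let C := H ⊓ (centralizer {j (up s6)} ⊓ centralizer {j (up t6 * x7)})
  have m : ∀ g, g * up s6 = up s6 * g ∧ g * (up t6 * x7) = up t6 * x7 * g → j g ∈ C := fun g h =>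
    ⟨M.le g, mem_centralizer_singleton_iff.2 (Commute.map h.1 j),
      mem_centralizer_singleton_iff.2 (Commute.map h.2 j)⟩
  have lT : T ≤ C := fun s hs => ⟨le hs, mem_centralizer_singleton_iff.2 (c s hs).1,
    mem_centralizer_singleton_iff.2 (c s hs).2⟩
  have cC : ∀ s ∈ C, Commute s (j (up s6)) ∧ Commute s (j (up t6 * x7)) := fun s h =>
    ⟨mem_centralizer_singleton_iff.1 h.2.1, mem_centralizer_singleton_iff.1 h.2.2⟩
  have o3 : orderOf (j x7) = 3 :=
    (orderOf_injective j M.inj _).trans (orderOf_eq_prime (by decide) (by decide))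
  have o6 : orderOf (j (up t6 * x7)) = 6 := (orderOf_injective j M.inj _).trans
    ((orderOf_eq_iff (by decide)).2 (by decide))
  have mx := m x7 (by decide)
  have d := dv (m _ (by decide)) o6 (Am.cenS M (T := C) inf_le_left cC).1 (by decide)
  refine ⟨(card_dvd_of_le lT).trans d, fun h => (card_dvd_of_le (K := C ⊓ centralizer {j (up x6)})
    fun s hs => ⟨lT hs, mem_centralizer_singleton_iff.2 (h s hs)⟩).trans (dv (mem_inf.2 ⟨mx,
      mem_centralizer_singleton_iff.2 (Commute.map (show x7 * up x6 = up x6 * x7 by decide) j)⟩) o3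
      ((Am.cenS M (T := C ⊓ centralizer {j (up x6)}) (fun s h => h.1.1) fun s h => cC s h.1).2
        fun s h => mem_centralizer_singleton_iff.1 h.2) (by decide)), fun s hs e => ?_⟩
  let z : C := ⟨j x7, mx⟩
  have cz : ∀ g : C, Commute g z := fun g => Subtype.ext (by
    have := ((cC g g.2).2).pow_right 4
    rwa [← map_pow, show (up t6 * x7) ^ 4 = x7 by decide] at this)
  haveI : (zpowers z).Normal := ⟨fun a ⟨i, h⟩ g => by
    rw [← h, ((cz g).zpow_right i).eq, mul_inv_cancel_right]; exact zpow_mem (mem_zpowers z) i⟩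
  have i4 : (zpowers z).index ∣ 4 := by
    rw [← card_mul_index (zpowers z), Nat.card_zpowers, ← orderOf_coe, o3] at d
    exact Nat.dvd_of_mul_dvd_mul_left (k := 3) (by decide) d
  obtain ⟨a, ha⟩ := i4
  obtain ⟨i, h⟩ := pow_mem (pow_index_mem (H := zpowers z) ⟨s, lT hs⟩) a
  refine ⟨i, (congrArg Subtype.val h).trans ?_⟩
  rw [← pow_mul, ← ha, Subgroup.coe_pow, pow_succ, e, one_mul]

end CF.An
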