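import Cfsg.Agent.E83.A

/-! The centralizer of a matrix of size four over the field with two elements. -/

set_option autoImplicit false

namespace CF.An.K5a

open Matrix Module

theorem idem {M : Type*} [Monoid M] [Finite M] (N : M) : ∃ k, N ^ (k + 1) * N ^ (k + 1) = N ^ (k + 1) := by
  obtain ⟨i, d, h⟩ : ∃ i d, N ^ (i + (d + 1)) = N ^ i := by
    obtain ⟨i, j, h, e⟩ := Finite.exists_ne_map_eq_of_infinite fun i : ℕ => N ^ i
    rcases h.lt_or_gt with h | h <;> obtain ⟨d, rfl⟩ := Nat.exists_eq_add_of_lt h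
    exacts [⟨i, d, e.symm⟩, ⟨j, d, e⟩]
  have k : ∀ n, N ^ (i + n * (d + 1)) = N ^ i := fun n => by
    induction' n with n ih
    · simp
    · rw [add_mul, one_mul, ← add_assoc, pow_add, ih, ← pow_add, h]
  refine ⟨i + (i + 1) * d, ?_⟩
  rw [← pow_add, show i + (i + 1) * d + 1 + (i + (i + 1) * d + 1) =
    i + (i + 1) * (d + 1) + ((i + 1) * d + 1) by ring, pow_add, k, ← pow_add, add_assoc]

/-- Matrices. -/
abbrev M4 := Matrix (Fin 4) (Fin 4) (ZMod 2)

/-- Two nontrivial units in the centralizer. -/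
def P (m : M4) : Prop :=
  ∃ a b : M4, IsUnit a ∧ IsUnit b ∧ a ≠ 1 ∧ b ≠ 1 ∧ a ≠ b ∧ Commute a m ∧ Commute b m

theorem two (x : M4) : x + x = 0 := by
  ext i j; exact CharTwo.add_self_eq_zero _

theorem P.succ {m : M4} (h : P (m + 1)) : P m := by
  obtain ⟨a, b, h1, h2, h3, h4, h5, h6, h7⟩ := h
  have e : m = m + 1 + 1 := by rw [add_assoc, two, add_zero]
  exact ⟨a, b, h1, h2, h3, h4, h5, e ▸ h6.add_right (.one_right _), e ▸ h7.add_right (.one_right _)⟩

theorem of_nil {m x y : M4} (hx : IsNilpotent x) (hy : IsNilpotent y) (x0 : x ≠ 0) (y0 : y ≠ 0)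
    (e : x ≠ y) (cx : Commute x m) (cy : Commute y m) : P m :=
  ⟨1 + x, 1 + y, hx.isUnit_one_add, hy.isUnit_one_add, by simpa, by simpa, by simpa,
    (Commute.one_left _).add_left cx, (Commute.one_left _).add_left cy⟩

theorem pair {m : M4} (h : m.rank ≤ 2) : ∃ u v : Fin 4 → ZMod 2, u ≠ 0 ∧ v ≠ 0 ∧ u ≠ v ∧
    m *ᵥ u = 0 ∧ m *ᵥ v = 0 := by
  have h1 := LinearMap.finrank_range_add_finrank_ker m.mulVecLin
  rw [finrank_fintype_fun_eq_card, Fintype.card_fin] at h1
  have h2 : 2 < Nat.card (LinearMap.ker m.mulVecLin) := by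
    rw [Module.natCard_eq_pow_finrank (K := ZMod 2), Nat.card_zmod]
    exact Nat.lt_of_lt_of_le (by norm_num) (Nat.pow_le_pow_right two_pos (show 2 ≤ _ by
      unfold Matrix.rank at h; omega))
  classical
  have := Fintype.ofFinite (LinearMap.ker m.mulVecLin)
  rw [Nat.card_eq_fintype_card] at h2
  have h3 : 1 < (Finset.univ.erase (0 : LinearMap.ker m.mulVecLin)).card := by
    rw [Finset.card_erase_of_mem (Finset.mem_univ _), Finset.card_univ]; omega
  obtain ⟨u, hu, v, hv, e⟩ := Finset.one_lt_card.1 h3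
  exact ⟨u, v, fun k => (Finset.mem_erase.1 hu).1 (Subtype.ext k),
    fun k => (Finset.mem_erase.1 hv).1 (Subtype.ext k), fun k => e (Subtype.ext k), u.2, v.2⟩

theorem of_rank {m : M4} (h : m.rank ≤ 2) : P m := by
  obtain ⟨u, u', u0, u1, u2, u3, u4⟩ := pair h
  obtain ⟨v, v', v0, v1, v2, v3, v4⟩ := pair (m := mᵀ) (by rwa [rank_transpose])
  have k : ∀ u : Fin 4 → ZMod 2, ∃ w, w ≠ 0 ∧ w ᵥ* m = 0 ∧ w ⬝ᵥ u = 0 := fun u => by
    rw [mulVec_transpose] at v3 v4
    by_cases a : v ⬝ᵥ u = 0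
    · exact ⟨v, v0, v3, a⟩
    by_cases b : v' ⬝ᵥ u = 0
    · exact ⟨v', v1, v4, b⟩
    refine ⟨v - v', sub_ne_zero.2 v2, by rw [sub_vecMul, v3, v4, sub_self], ?_⟩
    rw [sub_dotProduct]
    exact (by decide : ∀ a b : ZMod 2, a ≠ 0 → b ≠ 0 → a - b = 0) _ _ a b
  obtain ⟨w, w0, w1, w2⟩ := k u
  obtain ⟨w', w3, w4, w5⟩ := k u'
  have n : ∀ {u w : Fin 4 → ZMod 2}, m *ᵥ u = 0 → w ᵥ* m = 0 → w ⬝ᵥ u = 0 →
      IsNilpotent (vecMulVec u w) ∧ Commute (vecMulVec u w) m := fun a b c =>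
    ⟨⟨2, by rw [sq, vecMulVec_mul_vecMulVec, c, zero_smul, vecMulVec_zero]⟩, by
      rw [Commute, SemiconjBy, vecMulVec_mul, mul_vecMulVec, a, b, vecMulVec_zero, zero_vecMulVec]⟩
  refine of_nil (n u3 w1 w2).1 (n u4 w4 w5).1 (vecMulVec_ne_zero u0 w0) (vecMulVec_ne_zero u1 w3)
    (fun e => ?_) (n u3 w1 w2).2 (n u4 w4 w5).2
  obtain ⟨j, hj⟩ := Function.ne_iff.1 w0
  have a : ∀ i, u i = u' i * w' j := fun i => by
    have := congrFun₂ e i j
    rwa [vecMulVec_apply, vecMulVec_apply,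
      (by decide : ∀ a : ZMod 2, a ≠ 0 → a = 1) (w j) hj, mul_one] at this
  rcases (by decide : ∀ a : ZMod 2, a = 0 ∨ a = 1) (w' j) with b | b
  · exact u0 (funext fun i => by simp [a, b])
  · exact u2 (funext fun i => by simp [a, b])

theorem rk_mul (a b : M4) : a.rank + b.rank ≤ 4 + (a * b).rank := by
  have h1 := E83.rk_map a.mulVecLin (LinearMap.range b.mulVecLin)
  have h2 := LinearMap.finrank_range_add_finrank_ker a.mulVecLin
  have h3 := Submodule.finrank_mono
    (inf_le_right (a := LinearMap.range b.mulVecLin) (b := LinearMap.ker a.mulVecLin))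
  rw [finrank_fintype_fun_eq_card, Fintype.card_fin] at h2
  rw [← LinearMap.range_comp, ← mulVecLin_mul] at h1
  unfold Matrix.rank
  omega

theorem main (m : M4) : P m := by
  by_cases h1 : m.rank ≤ 2
  · exact of_rank h1
  by_cases h2 : (m + 1).rank ≤ 2
  · exact (of_rank h2).succ
  have c1 : Commute (m + 1) m := (Commute.refl m).add_left (.one_left _)
  have cN : Commute (m * (m + 1)) m := (Commute.refl m).mul_left c1
  have h3 : ∀ x : M4, 2 < x.rank → x * (m * (m + 1)) ≠ 0 := fun x hx e => by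
    have := rk_mul x (m * (m + 1))
    have := rk_mul m (m + 1)
    rw [e, rank_zero] at *
    omega
  have h4 := h3 1 (by simp)
  rw [one_mul] at h4
  have cM : Commute (m * (m + 1)) (m + 1) := cN.add_right (.one_right _)
  by_cases n : IsNilpotent (m * (m + 1))
  · by_cases e : m * (m + 1) * (m * (m + 1)) = 0
    · refine of_nil (cN.symm.isNilpotent_mul_left n) (cM.symm.isNilpotent_mul_left n)
        (h3 m (by omega)) (h3 _ (by omega)) (fun k => h4 ?_) ((Commute.refl m).mul_left cN)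
        (c1.mul_left cN)
      rwa [add_mul, one_mul, left_eq_add] at k
    · refine of_nil n ((Commute.refl _).isNilpotent_mul_left n) h4 e (fun k => h4 ?_) cN
        (cN.mul_left cN)
      exact (show IsIdempotentElem _ from k.symm).eq_zero_of_isNilpotent n
  obtain ⟨k, hk⟩ := idem (m * (m + 1))
  generalize hN : m * (m + 1) = N at *
  have e0 : N ^ (k + 1) ≠ 0 := fun e => n ⟨_, e⟩
  have cE : Commute (N ^ (k + 1)) m := cN.pow_left _
  have cE' : Commute (N ^ (k + 1)) (m + 1) := cM.pow_left _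
  have u : ∀ x y : M4, x * y = N → Commute (N ^ (k + 1)) x → Commute x m →
      (∃ w, N ^ (k + 1) = (x + 1) * w) → IsUnit (1 + N ^ (k + 1) * (x + 1)) ∧
      1 + N ^ (k + 1) * (x + 1) ≠ 1 ∧ Commute (1 + N ^ (k + 1) * (x + 1)) m := fun x y e c d f => by
    refine ⟨.of_mul_eq_one (1 + N ^ (k + 1) * (y * N ^ k + 1)) ?_, fun g => e0 ?_,
      (Commute.one_left _).add_left (cE.mul_left (d.add_left (.one_left _)))⟩
    · have a : x * (N ^ (k + 1) * (y * N ^ k)) = N ^ (k + 1) := by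
        rw [← mul_assoc, ← c.eq, mul_assoc, ← mul_assoc x, e, ← pow_succ', hk]
      have b : x * N ^ (k + 1) = N ^ (k + 1) * x := c.eq.symm
      generalize N ^ (k + 1) = E at *
      have a' : E * (x * (E * (y * N ^ k))) = E := by rw [a, hk]
      have b' : E * (x * E) = E * x := by rw [b, ← mul_assoc, hk]
      have b'' : ∀ z, E * (E * z) = E * z := fun z => by rw [← mul_assoc, hk]
      simp only [mul_add, add_mul, mul_one, one_mul, mul_assoc, a', b', b'', hk]
      refine .trans ?_ ((congrArg (1 + ·) (two (E * x + E + E * (y * N ^ k) + E))).trans (add_zero _))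
      abel
    · rw [add_eq_left] at g
      obtain ⟨w, f⟩ := f
      rw [← hk]
      nth_rw 2 [f]
      rw [← mul_assoc, g, zero_mul]
  have e1 : m + 1 + 1 = m := by rw [add_assoc, two, add_zero]
  obtain ⟨a1, a2, a3⟩ := u m (m + 1) hN cE (.refl _) ⟨m * N ^ k, by
    rw [← mul_assoc, c1.eq, hN, pow_succ']⟩
  obtain ⟨b1, b2, b3⟩ := u (m + 1) m (c1.eq.trans hN) cE' c1 ⟨(m + 1) * N ^ k, by
    rw [e1, ← mul_assoc, hN, pow_succ']⟩
  refine ⟨_, _, a1, b1, a2, b2, fun e => e0 ?_, a3, b3⟩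
  rwa [e1, add_right_inj, mul_add, mul_one, add_eq_left] at e

theorem three (m : M4) : ∃ c : Fin 3 → SpecialLinearGroup (Fin 4) (ZMod 2), Function.Injective c ∧
    ∀ i, Commute (c i).1 m := by
  obtain ⟨a, b, h1, h2, h3, h4, h5, h6, h7⟩ := main m
  have d : ∀ {x : M4}, IsUnit x → x.det = 1 := fun h =>
    (by decide : ∀ a : ZMod 2, a ≠ 0 → a = 1) _ ((isUnit_iff_isUnit_det _).1 h).ne_zero
  refine ⟨![1, ⟨a, d h1⟩, ⟨b, d h2⟩], fun i j e => ?_, fun i => ?_⟩
  · replace e := congrArg Subtype.val e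
    fin_cases i <;> fin_cases j <;> first | rfl | simp_all
  · fin_cases i
    exacts [.one_left _, h6, h7]

end CF.An.K5a
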