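import Cfsg.Agent.An.A
import Cfsg.Agent.Am.BG
import Cfsg.Agent.Al.C7

/-! Alternating subgroups of `²E₆(q)`: the subgroup `L₃(2)` of `A₇`. -/

set_option autoImplicit false
set_option maxRecDepth 100000

namespace CF.An

open Module Function Cfsg.Lie CF.E83 CF.Al CF.Am Finset C3 C7

variable {K V W : Type*} [Field K] [AddCommGroup V] [Module K V] [AddCommGroup W] [Module K W]

namespace L32

theorem avg {Q : Type*} [Group Q] [Fintype Q] (r : Q →* End K V) (hQ : (Fintype.card Q : K) ≠ 0) :
    Fx r ⊔ Cx r = ⊤ := eq_top_iff.2 fun v _ => by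
  have a : ∑ g, r g v ∈ Fx r := mem_Fx.2 fun h => by
    rw [map_sum]
    exact Fintype.sum_equiv (Equiv.mulLeft h) _ _ fun g => by simp
  have b : ∑ g, (r g v - v) ∈ Cx r := Submodule.sum_mem _ fun g _ => sub_mem_Cx g v
  have := sub_mem (Submodule.mem_sup_left (T := Cx r) a) (Submodule.mem_sup_right (S := Fx r) b)
  rw [sum_sub_distrib, sub_sub_cancel, sum_const, card_univ, ← Nat.cast_smul_eq_nsmul K] at this
  exact (Submodule.smul_mem_iff _ hQ).1 this

/-- The Frobenius group of order `21`. -/
def LF : List ℕ := [0, 288, 334, 340, 381, 514, 531, 818, 835, 849, 1173, 1337, 1373, 1449, 1609, 1688, 1951, 2165,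
  2328, 2343, 2495]

theorem okF : ok LF = true := by decide +kernel

theorem wF : ∀ n ∈ LF, ∃ i < 7, ∃ j < 3, cm (pc (ec 1173) i) (pc (ec 1688) j) = ec n := by decide +kernel

theorem gen (H : Subgroup A7) (a : el 10 ∈ H) (b : el 1173 ∈ H) : ∀ n ∈ LF, el n ∈ H := fun n hn => by
  have e : el 10 * el 1173 * el 10 * el 1173 * el 1173 * el 10 = el 1688 :=
    cd_inj (by simp only [cd_mul, cd_el]; decide +kernel)
  obtain ⟨i, -, j, -, k⟩ := wF n hn
  have f : el 1173 ^ i * el 1688 ^ j = el n := cd_inj (by simp only [cd_mul, cd_pow, cd_el, k])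
  refine f ▸ mul_mem (pow_mem b i) (pow_mem (e ▸ ?_) j)
  generalize el 10 = y, el 1173 = z at a b
  repeat (first | assumption | apply mul_mem)

end L32

open L32

variable [FiniteDimensional K V] [FiniteDimensional K W] [IsAlgClosed K] {q : ℕ}

theorem l32 {l : An 7 →* End K W} (h : TL q l) (h5 : (5 : K) = 0)
    (d : dm l (C3.T * C3.U) = 30) : dm l C7.Z ≠ 24 := fun z => by
  classical
  have h2 : (2 : K) ≠ 0 := fun e => one_ne_zero (α := K) (by linear_combination h5 - 2 * e)
  have h3 : (3 : K) ≠ 0 := fun e => one_ne_zero (α := K) (by linear_combination 2 * e - h5)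
  have h7 : (7 : K) ≠ 0 := fun e => h2 (by linear_combination e - h5)
  have k21 : ((21 : ℕ) : K) ≠ 0 := fun e => one_ne_zero (α := K) (by push_cast at e; linear_combination e - 4 * h5)
  obtain ⟨β, b⟩ := exists_br h.hq h.q2 l
  have e := C7.key b (c := [1, 0, 0, 0, 3, 3, 0, 0, 14]) (m := 21) okF rfl (by decide +kernel) k21
  have w := b.cyc (n := 7) (by exact_mod_cast h7) W7
  have x := b.three h3 Z3 cZ
  simp only [sum_range_succ, range_zero, sum_empty, pow_zero, pow_one, b.one, ← b.isConj cW2, ← b.isConj cW4,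
    ← b.isConj cW5, ← b.isConj cW6] at w
  simp only [sum_range_succ, range_zero, sum_empty, ri, List.getD_cons_zero, List.getD_cons_succ, e0, eW, eW3,
    b.one] at e
  rw [h.dl] at e w x
  rw [d] at w
  rw [z, Z] at x
  have f : finrank K (fx l LF) = 8 := Nat.cast_injective (R := ℂ) (by
    push_cast at e w x ⊢
    linear_combination (w + 7 * x - e) / 21)
  have s := scott' (r := l) (x := el 10) (y := el 1173) (Z := fx l LF) fun Z' Y a c => by
    have m := L32.gen _ a c
    refine ⟨fun v hv => mem_fx.2 fun n hn => (m n hn).1 v hv, ?_⟩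
    obtain ⟨h1, h2, -⟩ := ok_iff okF
    have n : Fintype.card (sg LF okF) = 21 := by
      convert (Fintype.card_of_subtype (LF.map el).toFinset fun _ => List.mem_toFinset).trans
        (List.toFinset_card_of_nodup
          (h2.map_on fun a ha b hb => el_inj (by simpa using h1 a ha) (by simpa using h1 b hb)))
      all_goals first | rfl | exact List.length_map el ▸ rfl
    have t := avg (l.comp (sg LF okF).subtype) (n ▸ k21)
    have t1 : Fx (l.comp (sg LF okF).subtype) ≤ fx l LF := fun v hv =>
      mem_fx.2 fun a ha => mem_Fx.1 hv ⟨_, List.mem_map_of_mem ha⟩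
    have t2 : Cx (l.comp (sg LF okF).subtype) ≤ Y := Cx_le.2 fun ⟨g, hg⟩ v => by
      obtain ⟨a, ha, rfl⟩ := List.mem_map.1 hg
      exact (m a ha).2 v
    rw [← finrank_top, ← top_le_iff.1 (t.ge.trans (sup_le_sup t1 t2))]
    exact Submodule.finrank_add_le_finrank_add_finrank _ _
  have t := h.t2 h2 (el 10) (eq_one.2 (by rw [cd_pow, cd_el]; decide +kernel))
    (mt eq_one.1 (by rw [cd_el]; decide +kernel))
  have p : el 10 * el 1173 = el 1551 := cd_inj (by simp only [cd_mul, cd_el]; decide +kernel)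
  have c := dm_le_pow (r := l) (T * U) 3
  rw [p, ← dm_conj (cc' (m := 1951) (n := 1551) (by decide +kernel)), eW, eW3, f, h.dl] at s
  omega

end CF.An
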