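import Cfsg.Agent.An.A
import Cfsg.Agent.Am.NS

/-! The triple cover of `A₆` in the twisted group. -/

set_option autoImplicit false

namespace CF.An

open Module Function Cfsg.Lie CF.E83 CF.Al CF.Am
open CF.Chev CF.BN CF.ExA
variable {p q z : ℕ} [Fact p.Prime] {X : Type*} [Group X] [Finite X] {L : LS cE6 pE6 p q z X}
  {R R' : L.G →* End L.K (N L.K)} {f : L.G →* GL (Fin 6 ⊕ Fin 72) L.K}
  {l : X →* End L.K (LA L.K)} {Φ : LA L.K →+ LA L.K} (hz : z = Nat.gcd 3 (q + 1))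
include hz

theorem ns3 (S : Sd L R R' 1) (D : Ld L f l Φ) (t : TB q (rY L R) (rY L (X3.Ad f))) {j : An 6 →* X}
    (hj : Injective j) (nc : Nc L.θ (j x6) (j y6)) (x : An 6) (e : x ^ 3 = 1) (n1 : x ≠ 1) :
    dm l (j x) = 30 :=
  NS.gen (hz ▸ Nat.gcd_dvd_left ..) S.sc D.hf D.eq t nc x e n1

end CF.An
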