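import Cfsg.Agent.An.A
import Cfsg.Agent.Am.NL

/-! Alternating subgroups of `²E₆(q)`: the count of white vectors. -/

set_option autoImplicit false
set_option linter.unusedSectionVars false

namespace CF.An

open Module Function Cfsg.Lie CF.E83 CF.Al CF.Am CF.Am.NL CF.Geom.E6

namespace NW

theorem tri : ∀ a b : I27, Col a b → ∃ c n, (p1 c n = a ∧ p2 c n = b ∨ p1 c n = b ∧ p2 c n = a) ∧
    ∀ m, m ≠ n → ¬ Col a (p1 c m) ∧ ¬ Col a (p2 c m) := by decide +kernel

theorem c17 : ∀ a : I27, Fintype.card {b // ¬ Col a b} = 17 := by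
  simp only [Fintype.card_subtype]; decide +kernel

variable {K : Type*} [Field K]

theorem ext {v w : N K} (hv : sh v = 0) (hw : sh w = 0) {a : I27} (h0 : v a ≠ 0) (e0 : v a = w a)
    (e : ∀ b, ¬ Col a b → v b = w b) : v = w := funext fun b => by
  by_contra n1
  obtain ⟨c, n, h, k⟩ := tri a b (by_contra fun o => n1 (e b o))
  have s := (congrFun hv c).trans (congrFun hw c).symm
  simp only [sh, Q] at s
  rw [← Finset.add_sum_erase _ _ (Finset.mem_univ n), ← Finset.add_sum_erase _ _ (Finset.mem_univ n),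
    Finset.sum_congr rfl fun m o => by
      rw [e _ (k m (Finset.ne_of_mem_erase o)).1, e _ (k m (Finset.ne_of_mem_erase o)).2], add_left_inj,
    mul_right_inj' (by unfold ep; split_ifs <;> simp)] at s
  rcases h with ⟨h, h'⟩ | ⟨h, h'⟩ <;> rw [h, h', ← e0] at s
  exacts [n1 (mul_left_cancel₀ h0 s), n1 (mul_right_cancel₀ h0 s)]

theorem cnt (F : Subfield K) [Finite F] {L : Set (N K)} (h : ∀ v ∈ L, v ≠ 0 ∧ sh v = 0 ∧ ∀ a, v a ∈ F) :
    L.ncard ≤ 27 * Nat.card F ^ 17 := by
  have t := fun a => Fintype.equivFinOfCardEq (c17 a)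
  choose a ha using fun v : L => Function.ne_iff.1 (h v v.2).1
  refine (Nat.card_le_card_of_injective (fun v : L => (a v, fun i => (⟨_, (h v v.2).2.2 ((t (a v)).symm i)⟩ : F)))
    fun v w e => Subtype.ext ?_).trans_eq (by simp [Nat.card_fun])
  obtain ⟨e1, e2⟩ := Prod.mk.inj e
  have k b (o : ¬ Col (a v) b) : v.1 b = w.1 b := by
    have := congrArg Subtype.val (congrFun e2 (t (a v) ⟨b, o⟩))
    rw [← e1] at this
    simpa using this
  exact ext (h v v.2).2.1 (h w w.2).2.1 (ha v) (k _ ((by decide +kernel : ∀ a : I27, ¬ Col a a) _)) k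

end NW

variable {X : Type*} [Group X] [Finite X] {H T : Subgroup X}
variable {Y : Type*} [Group Y] [Finite Y] {θ : Y →* X} {z : ℕ} (E : Ce z θ) {K : Type*} [Field K]
include E

theorem nlw {n : ℕ} (h5 : 5 ≤ n) {j : An n →* X} (M : Mx H j) {j' : An n →* Y}
    (hj : ∀ g, θ (j' g) = j g) {r r' : Y →* End K (N K)} (jp : JP r r') (i : Irr r)
    (sc : ∀ g, θ g = 1 → ∃ a : K, ∀ v, r g v = a • v) {F : Subfield K} [Finite F]
    (hr : ∀ g a b, r g (Pi.single a 1) b ∈ F) (w : ∀ v ∈ Fx (r.comp j'), sh v = 0)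
    (c : Nat.card H * (27 * Nat.card F ^ 17) < Nat.card X) : Fx (r.comp j') = ⊥ := by
  let b := (Pi.basisFun K I27).reindex (Fintype.equivFin I27)
  have hb x i j : b.repr (r x (b i)) j ∈ F := by simpa [b] using hr x _ _
  refine le_bot_iff.1 ((Ln.le_span b (F := F) fun f v m => mem_Fx.2 fun g => ?_).ge.trans
    (Submodule.span_le.2 fun u m => ?_))
  · exact (Ln.pj_ap b (hb _) f v).symm.trans (congrArg _ (mem_Fx.1 m g))
  by_contra u0
  obtain ⟨v, a, v0, e⟩ := line (ρ := Representation.subrepresentation (r.comp (H.comap θ).subtype) (Fx (r.comp j'))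
    fun g v m => inv h5 M hj sc g.2 m) (L := (Ln.La F b).comap (Fx (r.comp j')).subtype.toAddMonoidHom)
    (fun g v => Ln.ap_La b (hb _)) (fun y => by
      obtain ⟨g, e⟩ := M.sq _ y.2
      have k : θ ((j' g)⁻¹ * (y * y)) = 1 := by simp [hj, e]
      obtain ⟨a, s⟩ := sc _ k
      refine ⟨⟨_, show θ _ ∈ H from k ▸ one_mem _⟩, fun t => Subtype.ext (zc E k t), Subtype.ext (cube E k),
        ⟨a, fun v => Subtype.ext (s v)⟩, LinearMap.ext fun v => Subtype.ext ?_⟩
      refine Eq.trans (congrArg (r · v.1) ?_) (mem_Fx.1 v.2 g)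
      have := cube E k
      change y.1 * _ * (y.1 * _) = _
      rw [← pow_two, (zc E k _).symm.mul_pow]
      rw [pow_succ', mul_assoc, inv_mul_eq_one] at this
      rw [pow_two, ← this]) (u := ⟨u, m.2⟩) m.1 fun o => u0 (congrArg Subtype.val o)
  have v1 : v.1 ≠ 0 := by simpa using v0
  have := count E (r := r) (H := H) (D := {v.1}) (L := {v | v ∈ Ln.La F b ∧ v ≠ 0 ∧ sh v = 0})
    (Set.Finite.subset (Ln.card_La (F := F) b).1 fun _ m => m.1)
    (by
      rintro x _ rfl
      exact ⟨Ln.ap_La b (hb x) a, (map_ne_zero_iff _ (jp x).bij.1).2 v1, by rw [(jp x).s1, w _ v.2, map_zero]⟩) (by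
      rintro x _ rfl (k : _ = _)
      have s {y} {t : K} (e : r y v = t • v.1) : ∀ w ∈ K ∙ v.1, r y w ∈ K ∙ v.1 := fun w m => by
        obtain ⟨c, rfl⟩ := Submodule.mem_span_singleton.1 m
        rw [map_smul, e, smul_smul]
        exact Submodule.smul_mem _ _ (Submodule.mem_span_singleton_self _)
      refine st_mem E M i (U := K ∙ v.1) (by simpa using v0) (fun o => ?_) (fun y m => ?_) (s (t := 1) (by simpa using k))
      · have := finrank_span_singleton (K := K) v1
        rw [o, finrank_top] at this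
        simp at this
      · obtain ⟨t, e⟩ := e ⟨y, m⟩
        exact s (congrArg Subtype.val e))
  rw [Set.ncard_singleton, mul_one] at this
  exact c.not_ge (this.trans (Nat.mul_le_mul_left _ (NW.cnt F fun v m =>
    ⟨m.2.1, m.2.2, fun a => by simpa [b] using m.1 (Fintype.equivFin I27 a)⟩)))

end CF.An
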