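import Cfsg.Agent.An.ST
import Cfsg.Agent.An.CG
import Cfsg.Agent.Am.P5b

/-! The subalgebra of dimension eight in characteristic five, twisted case. -/

set_option autoImplicit false

namespace CF.An

open Module Function Cfsg.Lie CF.E83 CF.Al CF.Am CF.Chev CF.BN CF.ExA Matrix

namespace P5b

theorem lat {P : Matrix (Fin 6) (Fin 6) ℤ} (h : P ^ 3 = 1) {S : (Fin 6 → ℤ) → Prop}
    (h1 : ∀ y, S y → S (P *ᵥ y)) (h2 : ∀ y, S y → ∃ u, S u ∧ P *ᵥ y = y + (3 : ℤ) • u)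
    {y : Fin 6 → ℤ} (hy : S y) : P *ᵥ y = y := by
  have k : ∀ n y, S y → ∀ i, 3 ^ n ∣ (P *ᵥ y - y) i := fun n => by
    induction' n with n ih
    · simp
    intro y hy i
    obtain ⟨u, hu, e⟩ := h2 y hy
    obtain ⟨v, hv, e'⟩ := h2 u hu
    have h3 : ∀ v, P *ᵥ P *ᵥ P *ᵥ v = v := fun v => by
      rw [mulVec_mulVec, mulVec_mulVec, ← pow_three', h, one_mulVec]
    have h4 := h3 y
    have h5 := h3 u
    simp only [e, e', mulVec_add, mulVec_smul] at h4 h5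
    obtain ⟨m, h7⟩ := ih _ (h1 _ (h1 _ hv)) i
    rw [h3] at h7
    have := congrFun h4 i
    have := congrFun h5 i
    simp only [e, Pi.add_apply, Pi.sub_apply, Pi.smul_apply, smul_eq_mul] at *
    exact ⟨-m, by rw [pow_succ]; linarith⟩
  exact funext fun i => sub_eq_zero.1 (Int.eq_zero_of_abs_lt_dvd (k ((P *ᵥ y - y) i).natAbs y hy i) (by
    rw [Int.abs_eq_natAbs]; exact_mod_cast Nat.lt_pow_self (by omega)))

variable {S : Type*} [Group S] {q z : ℕ} {T : Subgroup S} (hq : q = 5 ∨ 25 ≤ q) (hz : z ∣ 3)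
include hq hz

theorem n1 (h : Tq q z 1 T) (d : Nat.card T ∣ 3) : False := by
  obtain ⟨d, n, d1, d2, d3, d4, -⟩ := h.md
  have := (Nat.dvd_prime Nat.prime_three).1 ‹Nat.card T ∣ 3›
  have h3 := (Nat.dvd_prime Nat.prime_three).1 (d1.trans hz)
  obtain rfl | h := d2.eq_or_lt
  · rw [pow_one] at d3 d4
    rcases h3 with rfl | rfl <;> omega
  have := (Nat.pow_le_pow_left (show 4 ≤ q - 1 by omega) 2).trans
    ((Nat.pow_le_pow_right (by omega) h).trans d3)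
  rcases h3 with rfl | rfl <;> omega

theorem n2 (h : Tq q z 2 T) (s : Nat.card T ∣ 12) : q = 5 ∧ Nat.card T = 12 := by
  obtain ⟨d, n, d1, d2, d3, -, d5⟩ := h.md
  have h := (Nat.pow_le_pow_right (by omega) d2).trans d3
  have := Nat.le_of_dvd (by omega) s
  have h3 := (Nat.dvd_prime Nat.prime_three).1 (d1.trans hz)
  obtain rfl | h25 := hq
  · simp only [Nat.ModEq] at d5
    obtain ⟨k, s⟩ := s
    generalize Nat.card T = N at *
    rcases h3 with rfl | rfl <;> interval_cases N <;> omega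
  · have := Nat.pow_le_pow_left (show 24 ≤ q - 1 by omega) 2
    rcases h3 with rfl | rfl <;> omega

end P5b

variable {p q z : ℕ} [Fact p.Prime] {X : Type*} [Group X] [Finite X] {L : LS cE6 pE6 p q z X}
  {f : L.G →* GL (Fin 6 ⊕ Fin 72) L.K} {l : X →* End L.K (LA L.K)} {Φ : LA L.K →+ LA L.K}
  {H : Subgroup X} (hz : z = Nat.gcd 3 (q + 1))
include hz

theorem p5 (hp : p = 5) {j : An 7 →* X} (M : Mx H j) {j' : An 7 →* Yg L}
    (hj : ∀ g, L.θ (j' g) = j g) (D : Ld L f l Φ) {U : Submodule L.K (LA L.K)}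
    (hU : Can (l.comp j) U) (h8 : finrank L.K U = 8) (cl : ∀ u ∈ U, ∀ v ∈ U, bk L.K u v ∈ U)
    (h6 : finrank L.K (F12 (l.comp j)) = 6) (h2 : 2 ≤ finrank L.K ↥(U ⊓ F12 (l.comp j))) : False := by
  subst hp
  obtain ⟨g, c, Q, e, q0, q1, q2, q3, nr, ⟨P, P3, hP⟩, k, y, hy, st, hk⟩ :=
    Am.P5b.gen L (ce L hz) D.hf D.eq D.br M.inj hU.sb cl h6 h2
  obtain ⟨c1, c2⟩ := can_L hz M D hU
  have key := fun E k y (hy : LinearIndependent ℤ (y : Fin k → _)) =>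
    no_torL hz M D (D.irr (CharP.cast_eq_zero L.K 5)) (by rintro rfl; simp at h8)
      (by rintro rfl; simp at h8) c1 c2 q0 E hy fun _ r hr => (nr r hr).elim
  have hq : q = 5 ∨ 25 ≤ q := by
    obtain ⟨m, h0, e⟩ := L.pow
    exact h0.nat_succ_le.eq_or_lt.imp (fun h => by rw [e, ← h]; rfl)
      fun h => e ▸ Nat.pow_le_pow_right (n := 5) (by omega) h
  have k1 := fun y hy st hk => show False by
    obtain ⟨T, t1, t2, t3, -⟩ := key {e} 1 y hy st hk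
    exact P5b.n1 hq (ce L hz).dvd t2 ((cenS M t1 fun s hs =>
      ⟨q1 ▸ (t3 s hs).1 0, q2 ▸ (t3 s hs).1 1⟩).2.1 fun s hs => q3 ▸ (t3 s hs).2 e rfl)
  rcases hk with rfl | ⟨rfl, hk⟩
  swap
  · exact k1 y hy st (by simpa using hk)
  obtain ⟨T, t1, t2, t3, t4⟩ := key ∅ 2 y hy st (by simp)
  obtain ⟨s1, -, s3⟩ := cenS M t1 fun s hs => ⟨q1 ▸ (t3 s hs).1 0, q2 ▸ (t3 s hs).1 1⟩
  obtain ⟨q5, h12⟩ := P5b.n2 hq (ce L hz).dvd t2 s1
  have hS : ∀ y : Fin 6 → ℤ, (∀ t : L.Kˣ, ∀ v ∈ U, X3.Ad f (tc L g fun a => t ^ y a) v ∈ U) →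
      ∀ t : L.Kˣ, ∀ v ∈ U, X3.Ad f (tc L g fun a => t ^ (P *ᵥ y) a) v ∈ U := fun y hy t v hv => by
    rw [tc, ← hP, map_mul, map_mul]
    exact c1 e (q3 ▸ M.le _) _ (hy t _ (c1 e⁻¹ (by rw [map_inv, q3]; exact inv_mem (M.le _)) v hv))
  obtain ⟨ω, hω⟩ := exists_orderOf (K := L.K) (n := 3) fun k => by
    simpa using (CharP.cast_eq_zero_iff L.K 5 3).1 k
  have := P5b.lat P3 hS (fun y hy => ?_) (st 0)
  · exact k1 (fun _ => y 0) (linearIndependent_unique_iff.2 (hy.ne_zero 0)) (fun _ => st 0)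
      (by rintro _ t _ rfl; exact (mul_inv_eq_iff_eq_mul.1 ((hP _ t).trans (by rw [this]))).symm)
  have ω3 : ω ^ 3 = 1 := hω ▸ pow_orderOf_eq_one ω
  obtain ⟨a, a1, a2⟩ := t4 q5 le_rfl h12 y (fun r hr => (nr r hr).elim) (fun t => ⟨hy t, by simp⟩) ω ω3
  obtain ⟨i, hi⟩ := s3 _ a1 (by
    rw [← map_pow, show a ^ 3 = 1 from Subtype.ext ?_, map_one]
    rw [Subgroup.coe_pow, a2, conj_pow, ← map_pow, show (fun a => ω ^ y a) ^ 3 = 1 from funext fun a => by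
      rw [Pi.pow_apply, ← zpow_natCast, zpow_comm, zpow_natCast, ω3, _root_.one_zpow]; rfl]
    simp)
  have h3 := SP.comm_eq (ce L hz).cen (q3.trans (hj _).symm) (b := a) (b' := j' (x7 ^ i))
    (by rw [hj, map_zpow]; exact hi.symm)
  rw [← map_commutatorElement, commutatorElement_eq_one_iff_commute.2 (Commute.zpow_right
    (show up x6 * x7 = x7 * up x6 by decide) i), map_one, commutatorElement_eq_one_iff_mul_comm] at h3
  have h4 := hP y ω
  rw [← tc, ← a2, show e.1 * a = a * e from congrArg Subtype.val h3, mul_inv_cancel_right, a2,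
    mul_left_inj, mul_right_inj] at h4
  choose u hu using fun i => hω ▸ orderOf_dvd_sub_iff_zpow_eq_zpow.2 (congrFun (L.h.inj h4) i).symm
  have h5 : P *ᵥ y = y + (3 : ℤ) • u := funext fun i => eq_add_of_sub_eq' (hu i)
  refine ⟨u, fun t v hv => ?_, h5⟩
  obtain ⟨s, rfl⟩ := Am.TK.root t three_pos
  rw [show (fun a => (s ^ 3) ^ u a) = (fun a => s ^ (P *ᵥ y) a) * fun a => s⁻¹ ^ y a from
    funext fun a => by simp [h5, _root_.zpow_add, _root_.zpow_mul, mul_comm (s ^ y a)], tc, map_mul L.h.r3.tor,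
    ← conj_mul, map_mul]
  exact hS y hy s _ (hy s⁻¹ v hv)

end CF.An
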