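import Cfsg.Agent.An.A
import Cfsg.Agent.An.R0

/-! The two modules of dimension `27` of the twisted group. -/

set_option autoImplicit false

namespace CF.An

open Module Function Cfsg.Lie CF.E83 CF.Al CF.Chev CF.BN Matrix CF.Am CF.Am.R1 R0

variable {p q z : ℕ} [Fact p.Prime] {X : Type*} [Group X] (L : LS cE6 pE6 p q z X)

theorem R0.psi_psi (v : N L.K) (a : I27) :
    (jM L.K *ᵥ (L.φ ∘ (jM L.K *ᵥ (L.φ ∘ v)))) a = v a ^ q ^ 2 := by
  simp only [jM_mulVec, Function.comp_apply, map_mul, map_intCast, j_spec, ← mul_assoc, ← Int.cast_mul]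
  simp [L.φ_eq, sq, pow_mul]

theorem R0.rat {A B : Matrix I27 I27 L.K}
    (h1 : ∀ v, A *ᵥ jM L.K *ᵥ (L.φ ∘ v) = jM L.K *ᵥ (L.φ ∘ (B *ᵥ v)))
    (h2 : ∀ v, B *ᵥ jM L.K *ᵥ (L.φ ∘ v) = jM L.K *ᵥ (L.φ ∘ (A *ᵥ v))) (a b : I27) :
    (A *ᵥ Pi.single a 1) b ^ q ^ 2 = (A *ᵥ Pi.single a 1) b := by
  obtain ⟨M, hM, e⟩ := L.pow
  have q0 : q ≠ 0 := e ▸ pow_ne_zero _ (Fact.out : p.Prime).ne_zero
  rw [← psi_psi, ← h2, ← h1]
  congr 2
  ext c
  rw [psi_psi, Pi.single_apply]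
  split_ifs <;> simp [q0]

theorem exists_sd : ∃ R R', Sd L R R' 1 ∧
    ∀ r t v, R (L.ρ.x r t) v = (1 + t • Geom.E6.eF L.K r) *ᵥ v := by
  obtain ⟨σ, h⟩ := exists_rp L.h
  have e : ∀ g v, en ((Units.coeHom _).comp σ) g v = (σ g).1 *ᵥ v := fun g v => en_apply ..
  have e' : ∀ g v, en ((Units.coeHom _).comp (tr.comp σ)) g v = (tr (σ g)).1 *ᵥ v := fun g v => en_apply ..
  refine ⟨_, _, ⟨.inl rfl, h.jp, fun c a => ?_, fun c a => ?_, fun g a b => ?_, fun g a b => ?_, h.irr,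
    (h.jp.comp _).irr h.irr, by simpa only [e] using h.cen, by simpa only [e'] using h.cen'⟩,
    fun r t v => by rw [e, h.x]⟩
  · rw [e, h.tor, diagonal_mulVec_single, ← Pi.single_smul, smul_eq_mul]
    simp
  · rw [e', h.tor', diagonal_mulVec_single, ← Pi.single_smul, smul_eq_mul]
    simp
  · rw [e]
    exact rat L (fun v => by simpa only [show L.T.σ g = g from g.2] using h.fr1 g v)
      (fun v => by simpa only [show L.T.σ g = g from g.2] using h.fr2 g v) a b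
  · rw [e']
    exact rat L (fun v => by simpa only [show L.T.σ g = g from g.2] using h.fr2 g v)
      (fun v => by simpa only [show L.T.σ g = g from g.2] using h.fr1 g v) a b

end CF.An
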