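import Cfsg.Agent.Am.R2

/-! Subspaces of the adjoint module that are invariant under the twisted group. -/

set_option autoImplicit false

namespace CF.An.R2

open Module Function Cfsg.Lie CF.Chev CF.BN Matrix Sum Finset CF.Am
open CF.Ey.E1 (Fl A_cases N_ne)

section
variable {B ι : Type} [Fintype B] [DecidableEq B] [Fintype ι] [DecidableEq ι] {C : LieBasis B ι}
  {K : Type*} [Field K] {θ r s a b u : ι} {k : ℤ} {v : B ⊕ ι → K}

theorem up (t : K) (h0 : 0 ≤ C.A θ r) (h : Fl C θ k v) :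
    Fl C θ (k + C.A θ r) (C.X r t *ᵥ v - v) := fun c hc => by
  have e : ∀ j : ℕ, 1 ≤ j → (C.E K j r *ᵥ v) c ≠ 0 → k + C.A θ r ≤ C.cor θ (C.wt c) := fun j hj a => by
    obtain ⟨b, -, hb⟩ := exists_ne_zero_of_sum_ne_zero a
    have := h b (right_ne_zero_of_mul hb)
    rw [C.E_graded (left_ne_zero_of_mul hb), map_add, map_smul, ← C.A_def, smul_eq_mul]
    nlinarith [Int.ofNat_le.2 hj]
  by_contra n
  refine hc ?_
  rw [C.X_mulVec]
  simp [not_not.1 (mt (e 1 le_rfl) n), not_not.1 (mt (e 2 (by omega)) n), not_not.1 (mt (e 3 (by omega)) n)]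

/-- The difference operator. -/
noncomputable def D (C : LieBasis B ι) (r : ι) (t : K) : End K (B ⊕ ι → K) := toLin' (C.X r t) - 1

theorem D_apply (r : ι) (t : K) (v : B ⊕ ι → K) : D C r t v = C.X r t *ᵥ v - v := rfl

variable (hl : C.SameLen)
include hl

theorem ddd (ha : C.A θ a = 1) (hb : C.vec b = C.vec θ - C.vec a) (t₁ t₂ t₃ : K) (v : B ⊕ ι → K) :
    D C θ t₁ (D C a t₂ (D C b t₃ v)) =
      (-(t₁ * t₂ * t₃ * C.N b (C.neg θ)) * v (inr (C.neg θ))) • LieBasis.bv K (inr θ) := by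
  have sy := fun r s => C.A_symm_of_len (hl r s)
  have hθb : C.A θ b = 1 := by rw [C.A_sub hb, C.A_self, ha]; rfl
  have hab : C.A a b = -1 := by rw [C.A_sub hb, C.A_self, sy a θ, ha]; rfl
  have e1 : C.vec (C.neg a) = C.vec (C.neg θ) + C.vec b := by rw [hb, C.vec_neg, C.vec_neg]; abel
  have f0 : Fl C θ (-1) (v - v (inr (C.neg θ)) • LieBasis.bv K (inr (C.neg θ))) := by
    rintro (i | s) hc
    · simp
    · have : s ≠ C.neg θ := by rintro rfl; simp [LieBasis.bv_apply] at hc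
      rw [RootSys.wt_inr, ← C.A_def]
      rcases A_cases hl θ s with rfl | e | e | e | e
      · rw [C.A_self]; omega
      · exact absurd e this
      all_goals omega
  have f3 := up (r := θ) t₁ (by rw [C.A_self]; omega)
    (up (r := a) t₂ (by omega) (up (r := b) t₃ (by omega) f0))
  have z : D C θ t₁ (D C a t₂ (D C b t₃
      (v - v (inr (C.neg θ)) • LieBasis.bv K (inr (C.neg θ))))) = 0 := by
    funext c
    by_contra n
    have := f3 c n
    rw [C.A_self, ha, hθb] at this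
    rcases c with i | s
    · simp at this
    · have := hl.n3.le θ s
      rw [RootSys.wt_inr, ← C.A_def] at *
      omega
  simp only [map_sub, map_smul, sub_eq_zero] at z
  rw [z, D_apply b, C.X_one_step t₃ e1 fun u => by
      rw [two_smul, ← add_assoc, ← e1]
      exact hl.n3.not_add (by rw [C.A_neg_right, sy b a, hab]; omega) u,
    add_sub_cancel_left, map_smul, D_apply a, C.X_neg_root, map_smul, add_sub_assoc,
    add_sub_cancel_left, map_sub, map_smul, map_smul, D_apply, D_apply, C.X_hv, sy a θ, ha,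
    C.X_none (s := a) (r := θ) t₁ (hl.n3.not_add (by omega)) (C.ne_neg_of_A_nonneg (by omega))]
  push_cast
  module

theorem coord (h : C.vec u = C.vec s + C.vec r) (t : K) (v : B ⊕ ι → K) :
    (C.X r t *ᵥ v) (inr u) = v (inr u) + t * C.N r s * v (inr s) := by
  have h1 : C.A r u = 1 := by
    have e := C.A_add h r
    rw [C.A_self] at e
    rcases A_cases hl r u with k | k | k | k | k
    · exact absurd (by simpa [k] using h) (C.vec_ne_zero s)
    · have := hl.n3.le r (C.neg s)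
      rw [k, C.A_neg_right, C.A_self] at e
      rw [C.A_neg_right] at this
      omega
    · rcases A_cases hl r s with l | l | l | l | l
      · rw [l, C.A_self] at e; omega
      · exact absurd (by simpa [l, C.vec_neg] using h) (C.vec_ne_zero u)
      all_goals omega
    · exact k
    · have := hl.n3.le r (C.neg s)
      rw [C.A_neg_right] at this
      omega
  have h2 : ∀ k : ℕ, 2 ≤ k → (C.E K k r *ᵥ v) (inr u) = 0 := fun k hk => by_contra fun n => by
    obtain ⟨b, -, hb⟩ := exists_ne_zero_of_sum_ne_zero n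
    have := congrArg (C.cor r) (C.E_graded (left_ne_zero_of_mul hb))
    rw [map_add, map_smul, RootSys.wt_inr, ← C.A_def, ← C.A_def, h1, C.A_self, smul_eq_mul] at this
    rcases b with i | z
    · simp at this; omega
    · have e := hl.n3.le r (C.neg z)
      rw [RootSys.wt_inr, ← C.A_def] at this
      rw [C.A_neg_right] at e
      omega
  have h3 : (C.E K 1 r *ᵥ v) (inr u) = C.N r s * v (inr s) := by
    refine (sum_eq_single (inr s) (fun b _ n => mul_eq_zero_of_left (by_contra fun e => ?_) _)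
      (by simp)).trans ?_
    · have := C.E_graded e
      rw [RootSys.wt_inr, h, Nat.cast_one, one_smul, add_left_inj] at this
      rcases b with i | z
      · exact C.vec_ne_zero s this
      · exact n (congrArg _ (C.vec_inj this).symm)
    · have := congrFun (C.E_one_root (K := K) h) (inr u)
      rw [LieBasis.mulVec_bv_apply] at this
      simp [this, LieBasis.bv_apply]
  rw [C.X_mulVec]
  simp [h2 2 le_rfl, h2 3 (by omega), h3, mul_assoc]

theorem orth (h : C.A r s = 0) (t : K) : C.X r t *ᵥ LieBasis.bv K (inr s) = LieBasis.bv K (inr s) :=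
  C.X_none t (fun u e => by
    have := C.A_add e r
    rw [h, C.A_self] at this
    rcases A_cases hl r u with k | k | k | k | k
    · exact C.vec_ne_zero s (by simpa [k] using e)
    · rw [k, C.A_neg_right, C.A_self] at this; omega
    all_goals omega) (C.ne_neg_of_A_nonneg h.ge)

end

theorem sl : cE6.SameLen := sameLenE6

/-- The graph automorphism on the roots. -/
def tu (r : Fin 72) : Fin 72 := ([0, 1, 2, 5, 16, 3, 6, 17, 8, 19, 22, 11, 26, 30, 33, 35, 4, 7, 18,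
  9, 20, 23, 10, 21, 24, 25, 12, 27, 31, 34, 13, 28, 32, 14, 29, 15, 56, 42, 57, 39, 43, 58, 37, 40,
  44, 59, 46, 47, 50, 61, 48, 51, 62, 53, 64, 67, 36, 38, 41, 45, 60, 49, 52, 63, 54, 65, 68, 55, 66,
  69, 70, 71] : List (Fin 72)).getD r 0

theorem f0 : ∀ r i, cE6.vec (tu r) (pE6 i) = cE6.vec r i := by
  simp only [tabE6'.vec]; decide +kernel

theorem f1 : ∀ θ, tu θ = θ → tu (cE6.neg θ) = cE6.neg θ ∧ ∃ a, tu a = a ∧ cE6.A θ a = 1 ∧
    ∃ b, tu b = b ∧ cE6.vec b = cE6.vec θ - cE6.vec a := by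
  simp only [tabE6'.vec, tabE6'.A, funext_iff, Pi.sub_apply]; decide +kernel

theorem f2 : ∀ s, tu s ≠ s → cE6.A s (tu s) = 0 ∧ ∃ r, tu r ≠ r ∧ (∃ u, tu u = u ∧
    cE6.vec u = cE6.vec s + cE6.vec r ∧ cE6.vec u = cE6.vec (tu s) + cE6.vec (tu r)) ∧
    ∃ u, tu u = u ∧ cE6.vec s = cE6.vec u + cE6.vec (tu r) := by
  simp only [tabE6'.vec, tabE6'.A, funext_iff, Pi.add_apply]; decide +kernel

theorem f3 : ∀ θ, tu θ = θ → ∀ r, ∃ a, tu a = a ∧ (a = θ ∨ cE6.A θ a = 1) ∧
    (cE6.A a r = 1 ∨ cE6.A a r = -1) ∧ cE6.A a (tu r) = cE6.A a r := by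
  simp only [tabE6'.A]; decide +kernel

variable {K : Type*} [Field K] {A : Submodule K (LA K)}
  (h1 : ∀ r, tu r = r → ∃ t, t ≠ 0 ∧ ∀ v ∈ A, cE6.X r t *ᵥ v ∈ A)
  (h2 : ∀ r, tu r ≠ r → ∃ t u t' u', t * u' ≠ t' * u ∧ ∀ v ∈ A,
    cE6.X r t *ᵥ cE6.X (tu r) u *ᵥ v ∈ A ∧ cE6.X r t' *ᵥ cE6.X (tu r) u' *ᵥ v ∈ A)
include h1

theorem ext {θ : Fin 72} (hθ : tu θ = θ) {v : LA K} (hv : v ∈ A) (n : v (inr (cE6.neg θ)) ≠ 0) :
    LieBasis.bv K (inr θ) ∈ A := by
  obtain ⟨-, a, ha, e, b, hb, e'⟩ := f1 θ hθ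
  obtain ⟨t₁, n₁, k₁⟩ := h1 θ hθ
  obtain ⟨t₂, n₂, k₂⟩ := h1 a ha
  obtain ⟨t₃, n₃, k₃⟩ := h1 b hb
  have d : ∀ {r t}, (∀ v ∈ A, cE6.X r t *ᵥ v ∈ A) → ∀ {v}, v ∈ A → D cE6.toLieBasis r t v ∈ A :=
    fun k _ hv => sub_mem (k _ hv) hv
  have := d k₁ (d k₂ (d k₃ hv))
  rw [ddd sl e e'] at this
  exact (A.smul_mem_iff (mul_ne_zero (neg_ne_zero.2 (mul_ne_zero (by simp [*])
    (N_ne sl (u := cE6.neg a) (by rw [e', cE6.vec_neg, cE6.vec_neg]; abel)))) n)).1 this

theorem hv_mem {θ : Fin 72} (hθ : tu θ = θ) (h : LieBasis.bv K (inr θ) ∈ A) : cE6.hv K θ ∈ A := by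
  obtain ⟨t, n, k⟩ := h1 θ hθ
  have m := ext h1 (f1 θ hθ).1 h (by simp [LieBasis.bv_apply])
  have := add_mem (sub_mem (k _ m) m) (A.smul_mem (t ^ 2) h)
  rw [LieBasis.X_neg_root] at this
  exact (A.smul_mem_iff n).1 (by convert this using 1; abel)

include h2

theorem step {θ r : Fin 72} (hθ : tu θ = θ) (h : LieBasis.bv K (inr θ) ∈ A)
    (e : cE6.A θ r = 1 ∨ cE6.A θ r = -1) (e' : cE6.A θ (tu r) = cE6.A θ r) :
    LieBasis.bv K (inr r) ∈ A := by
  have m := hv_mem h1 hθ h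
  have a0 : (cE6.A θ r : K) ≠ 0 := by rcases e with e | e <;> simp [e]
  by_cases hr : tu r = r
  · obtain ⟨t, n, k⟩ := h1 r hr
    have := sub_mem m (k _ m)
    rw [LieBasis.X_hv, sub_sub_cancel] at this
    exact (A.smul_mem_iff (mul_ne_zero n a0)).1 this
  obtain ⟨t, u, t', u', n, k⟩ := h2 r hr
  have := sub_mem (A.smul_mem u' (sub_mem m (k _ m).1)) (A.smul_mem u (sub_mem m (k _ m).2))
  simp only [LieBasis.X_hv, mulVec_sub, mulVec_smul, orth sl (f2 r hr).1, e'] at this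
  exact (A.smul_mem_iff (mul_ne_zero (sub_ne_zero.2 n) a0)).1 (by convert this using 1; module)

theorem top {θ : Fin 72} (hθ : tu θ = θ) (h : LieBasis.bv K (inr θ) ∈ A) : A = ⊤ := by
  have a : ∀ r, LieBasis.bv K (inr r) ∈ A := fun r => by
    obtain ⟨a, ha, e, k, k'⟩ := f3 θ hθ r
    refine step h1 h2 ha (e.elim (· ▸ h) fun e => step h1 h2 hθ h (.inl e) (by rw [ha])) k k'
  refine eq_top_iff.2 fun v _ => ?_
  rw [LieBasis.eq_sum_bv K v]
  refine A.sum_mem fun c _ => A.smul_mem _ ?_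
  rcases c with i | s
  swap
  · exact a s
  rw [← cE6.hv_simple]
  generalize cE6.simple i = r
  by_cases hr : tu r = r
  · exact hv_mem h1 hr (a r)
  obtain ⟨t, u, t', u', n, k⟩ := h2 r hr
  have o : cE6.A (tu r) (cE6.neg r) = 0 := by
    rw [cE6.A_neg_right, (cE6.A_eq_zero_iff _ _).1 (f2 r hr).1, neg_zero]
  have b : ∀ {t u}, cE6.X r t *ᵥ cE6.X (tu r) u *ᵥ LieBasis.bv K (inr (cE6.neg r)) ∈ A →
      t • cE6.hv K r ∈ A := fun {t u} m => by
    have := add_mem (sub_mem m (a (cE6.neg r))) (A.smul_mem (t ^ 2) (a r))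
    rw [orth sl o, LieBasis.X_neg_root] at this
    convert this using 1; abel
  by_cases t0 : t = 0
  · exact (A.smul_mem_iff fun e => n (by simp [t0, e])).1 (b (k _ (a _)).2)
  · exact (A.smul_mem_iff t0).1 (b (k _ (a _)).1)

/-- Proper invariant subspaces lie in the centre. -/
theorem key (n : A ≠ ⊤) {v : LA K} (hv : v ∈ A) :
    (∀ s, v (inr s) = 0) ∧ ∀ j, ∑ i, v (inl i) * (cE6.car i j : K) = 0 := by
  have z0 : ∀ v ∈ A, ∀ s, tu s = s → v (inr s) = 0 := fun v hv s hs => by_contra fun e =>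
    n (top h1 h2 (f1 s hs).1 (ext h1 (f1 s hs).1 hv (by rwa [cE6.neg_neg])))
  have z : ∀ v ∈ A, ∀ s, v (inr s) = 0 := fun v hv s => by
    by_cases hs : tu s = s
    · exact z0 v hv s hs
    obtain ⟨-, r, hr, ⟨w, hw, e1, e2⟩, w', hw', e3⟩ := f2 s hs
    obtain ⟨t, u, t', u', n, k⟩ := h2 r hr
    have a := z0 _ (k v hv).1 w hw
    have b := z0 _ (k v hv).2 w hw
    rw [coord sl e1, coord sl e2, coord sl e3, z0 v hv w hw, z0 v hv w' hw'] at a b
    refine mul_left_cancel₀ (mul_ne_zero (sub_ne_zero.2 n) (N_ne sl e1)) ?_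
    linear_combination u' * a - u * b
  refine ⟨z v hv, fun j => ?_⟩
  rw [LieBasis.eq_sum_bv K v, Fintype.sum_sum_type] at hv
  simp only [z v (by rwa [← Fintype.sum_sum_type (f := fun c => v c • LieBasis.bv K c),
    ← LieBasis.eq_sum_bv] at hv), zero_smul, sum_const_zero, add_zero] at hv
  simp only [← cE6.sp_single, ← cE6.vec_simple]
  generalize cE6.simple j = r
  by_cases hr : tu r = r
  · obtain ⟨t, t0, k⟩ := h1 r hr
    have := z _ (k _ hv) r
    simp only [mulVec_sum, mulVec_smul, LieBasis.X_inl] at this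
    refine mul_left_cancel₀ t0 ?_
    simpa [Finset.sum_apply, LieBasis.bv_apply, Finset.mul_sum, mul_left_comm t] using this
  obtain ⟨t, u, t', u', n, k⟩ := h2 r hr
  have b : ∀ {t u}, cE6.X r t *ᵥ cE6.X (tu r) u *ᵥ ∑ i, v (inl i) • LieBasis.bv K (inl i) ∈ A →
      t * ∑ i, v (inl i) * (cE6.sp i (cE6.vec r) : K) = 0 := fun {t u} m => by
    have := z _ m r
    simp only [mulVec_sum, mulVec_smul, LieBasis.X_inl, mulVec_sub, orth sl (f2 r hr).1] at this
    simpa [Finset.sum_apply, LieBasis.bv_apply, Finset.mul_sum, mul_left_comm t, Ne.symm hr] using this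
  by_cases t0 : t = 0
  · exact (mul_eq_zero.1 (b (k _ hv).2)).resolve_left fun e => n (by simp [t0, e])
  · exact (mul_eq_zero.1 (b (k _ hv).1)).resolve_left t0

end CF.An.R2
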