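import Cfsg.Agent.An.A
import Cfsg.Agent.An.R2a

/-! The adjoint module of `²E₆(q)`. -/

set_option autoImplicit false

namespace CF.An

open Module Function Cfsg.Lie CF.E83 CF.Al CF.Am CF.Chev CF.BN CF.ExA Matrix Sum Finset

namespace R2

section
variable {B ι : Type} [Fintype B] [DecidableEq B] [Fintype ι] [DecidableEq ι] {C : ChevBasis B ι}
  (E : Emb C C) (K : Type*) [CommRing K]

/-- The matrix of the graph automorphism. -/
noncomputable def Gm : Matrix (B ⊕ ι) (B ⊕ ι) K :=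
  (Int.castRingHom K).mapMatrix (LinearMap.toMatrix' (E.toRootEmb.Th E.ε))

theorem Gm_E {r : ι} (hr : E.ε r = 1) (k : ℕ) (hk : k = 1 ∨ k = 2 ∨ k = 3) :
    Gm E K * C.E K k r = C.E K k (E.f r) * Gm E K := by
  set T := LinearMap.toMatrix' (E.toRootEmb.Th E.ε) with hT
  have h0 : ∀ x, T *ᵥ x = E.toRootEmb.Th E.ε x := fun x => LinearMap.toMatrix'_mulVec _ _
  have h1 : SemiconjBy T (C.E ℤ 1 r) (C.E ℤ 1 (E.f r)) := LieBasis.ext_col fun c => by
    have : LieBasis.bv ℤ c ∈ E.toRootEmb.Comm E.ε r := by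
      rcases c with i | s
      exacts [RootEmb.inl_mem_Comm _ _ r i, (RootEmb.inr_mem_Comm_iff E.full E.ε_neg).2 (E.ok r s)]
    rw [RootEmb.mem_Comm, hr, Units.val_one, one_smul] at this
    rw [← mulVec_mulVec, ← mulVec_mulVec, h0, h0, this]
  have key : T * C.E ℤ k r = C.E ℤ k (E.f r) * T := by
    rcases hk with rfl | rfl | rfl
    · exact h1.eq
    · have := (h1.pow_right 2).eq
      rw [LieBasis.E_one_pow_two, LieBasis.E_one_pow_two] at this
      refine smul_right_injective _ (two_ne_zero (α := ℤ)) ?_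
      simpa [-zsmul_eq_mul] using this
    · have := (h1.pow_right 3).eq
      rw [LieBasis.E_one_pow_three, LieBasis.E_one_pow_three] at this
      refine smul_right_injective _ (show (6 : ℤ) ≠ 0 by norm_num) ?_
      simpa [-zsmul_eq_mul] using this
  have := congrArg (Int.castRingHom K).mapMatrix key
  rwa [map_mul, map_mul, LieBasis.E_map, LieBasis.E_map] at this

theorem Gm_X {r : ι} (hr : E.ε r = 1) (t : K) : Gm E K * C.X r t = C.X (E.f r) t * Gm E K := by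
  simp only [LieBasis.X, Matrix.mul_add, Matrix.add_mul, Matrix.mul_smul, Matrix.smul_mul,
    Gm_E E K hr 1 (by simp), Gm_E E K hr 2 (by simp), Gm_E E K hr 3 (by simp), mul_one, one_mul]

theorem Gm_inj {π : Equiv.Perm B} (hE : ∀ i, E.f (C.simple i) = C.simple (π i)) {v : B ⊕ ι → K}
    (h : Gm E K *ᵥ v = 0) : v = 0 := by
  have e : ∀ a c, Gm E K a c = (E.toRootEmb.Th E.ε (LieBasis.bv ℤ c) a : K) := fun a c => by
    simp [Gm, LieBasis.bv]
  funext a
  rcases a with i | r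
  · have := congrFun h (inl (π i))
    simpa [mulVec, dotProduct, e, RootEmb.Th_inl, RootEmb.Th_inr, hE, C.hv_simple,
      LieBasis.bv_apply] using this
  · have := congrFun h (inr (E.f r))
    rcases Int.units_eq_one_or (E.ε r) with k | k <;>
    simpa [mulVec, dotProduct, e, RootEmb.Th_inl, RootEmb.Th_inr, hE, C.hv_simple,
      LieBasis.bv_apply, E.f_injective.eq_iff, k] using this

end

variable {p q z : ℕ} [Fact p.Prime] {X : Type*} [Group X] (L : LS cE6 pE6 p q z X)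

theorem π_eq (r : Fin 72) : L.T.π r = tu r := cE6.vec_inj (funext fun i => by
  obtain ⟨i, rfl⟩ := pE6.surjective i
  have := compat_one (S := L.T.S) (by rw [L.gr.p_eq]; decide +kernel) r i
  rw [L.gr.p_eq] at this
  rw [f0]
  simpa using! this)

theorem σx (r : Fin 72) (t : L.K) : L.T.σ (L.ρ.x r t) = L.ρ.x (tu r) (L.T.c r * L.φ t) := by
  rw [L.T.σ_x, π_eq, L.gr.φ_eq]

theorem σσ (r : Fin 72) (t : L.K) : L.T.σ (L.T.σ (L.ρ.x r t)) = L.ρ.x r (L.φ (L.φ t)) := by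
  obtain ⟨M, -, rfl⟩ := L.pow
  have := L.gr.iterate_eq L.h L.φ_eq (k := 2) (by decide) (L.ρ.x r t)
  rw [L.h.fr_x p] at this
  rw [L.φ_eq, L.φ_eq, ← pow_mul, ← pow_add, ← mul_two]
  exact this

include L in
theorem q1 : 1 < q := by
  obtain ⟨M, hM, e⟩ := L.pow
  exact e ▸ Nat.one_lt_pow hM.ne' (Fact.out : p.Prime).one_lt

theorem fix1 {r : Fin 72} (hr : tu r = r) : ∃ t, t ≠ 0 ∧ L.T.σ (L.ρ.x r t) = L.ρ.x r t := by
  obtain ⟨t, e⟩ := IsAlgClosed.exists_pow_nat_eq ((L.T.c r)⁻¹ : L.Kˣ).1 (Nat.sub_pos_of_lt (q1 L))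
  refine ⟨t, fun k => Units.ne_zero _ (by rw [← e, k, zero_pow (Nat.sub_pos_of_lt (q1 L)).ne']), ?_⟩
  rw [σx, hr, L.φ_eq, ← pow_sub_one_mul (q1 L).ne_bot, e, ← mul_assoc, Units.mul_inv, one_mul]

theorem fix2 {r : Fin 72} (hr : tu r ≠ r) {t : L.K} (ht : L.φ (L.φ t) = t) :
    L.ρ.x r t * L.ρ.x (tu r) (L.T.c r * L.φ t) ∈ Yg L := by
  have h := (f2 r hr).1
  change L.T.σ _ = _
  rw [← σx, map_mul, σσ, ht, σx]
  refine (L.ρ.commute_of_none (cE6.ne_neg_of_A_nonneg h.ge) (fun u e => ?_) _ _).symm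
  have := cE6.A_add e r
  rw [h, cE6.A_self] at this
  rcases Ey.E1.A_cases sl r u with k | k | k | k | k
  · exact cE6.vec_ne_zero (tu r) (by simpa [k] using e)
  · rw [k, cE6.A_neg_right, cE6.A_self] at this; omega
  all_goals omega

theorem exists_ω : ∃ ω : L.K, L.φ (L.φ ω) = ω ∧ L.φ ω ≠ ω := by
  obtain ⟨a, e⟩ := IsAlgClosed.exists_pow_nat_eq (-1 : L.K) (Nat.sub_pos_of_lt (q1 L))
  have a0 : a ≠ 0 := fun k => by simp [k, (Nat.sub_pos_of_lt (q1 L)).ne'] at e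
  have a1 : L.φ a = -a := by rw [L.φ_eq, ← pow_sub_one_mul (q1 L).ne_bot, e, neg_one_mul]
  obtain ⟨ω, h⟩ := IsAlgClosed.exists_root
    (Polynomial.X ^ q - (Polynomial.X + Polynomial.C a) : Polynomial L.K) (by
      rw [Polynomial.degree_sub_eq_left_of_degree_lt (by
        rw [Polynomial.degree_X_add_C, Polynomial.degree_X_pow]; exact_mod_cast q1 L),
        Polynomial.degree_X_pow]
      exact_mod_cast (q1 L).ne_bot)
  have h1 : L.φ ω = ω + a := by simpa [L.φ_eq, sub_eq_zero] using h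
  exact ⟨ω, by rw [h1, map_add, h1, a1, add_neg_cancel_right], by simpa [h1]⟩

end R2

variable {p q z : ℕ} [Fact p.Prime] {X : Type*} [Group X] [Finite X] {L : LS cE6 pE6 p q z X}

set_option linter.unusedSectionVars false in
open R2 in
variable (L) in
/-- piece R2 -/
theorem exists_ld : ∃ f l Φ, Ld L f l Φ := by
  obtain ⟨f, hf⟩ := L.h.faith
  have e0 : ∀ g v, X3.Ad f g v = (f g).val *ᵥ v := fun g v => en_apply _ _ _
  have hk : L.θ.ker ≤ (rY L (X3.Ad f)).toHomUnits.ker := fun g hg =>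
    Units.ext (X3.ad_cen L.h hf ((L.ker g).1 hg))
  obtain ⟨l, hl⟩ : ∃ l : X →* End L.K (LA L.K), ∀ y : Yg L, l (L.θ y) = X3.Ad f y :=
    ⟨(Units.coeHom _).comp (L.θ.liftOfSurjective L.surj ⟨_, hk⟩), fun y =>
      congrArg Units.val (L.θ.liftOfRightInverse_comp_apply _ (rightInverse_surjInv L.surj) ⟨_, hk⟩ y)⟩
  have ex : ∀ r t v, X3.Ad f (L.ρ.x r t) v = cE6.X r t *ᵥ v := fun r t v => by
    rw [e0, hf, LieBasis.val_xG]
  obtain ⟨ω, w1, w2⟩ := exists_ω L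
  have k1 : ∀ {A : Submodule L.K (LA L.K)}, Sb l A → A ≠ ⊤ → ∀ v ∈ A,
      (∀ s, v (inr s) = 0) ∧ ∀ j, ∑ i, v (inl i) * (cE6.car i j : L.K) = 0 := fun h n v hv =>
    key (fun r hr => (fix1 L hr).imp fun t e => ⟨e.1, fun v hv => by
        have := h (L.θ ⟨_, e.2⟩) v hv
        rwa [hl, ex] at this⟩)
      (fun r hr => ⟨1, L.T.c r * L.φ 1, ω, L.T.c r * L.φ ω, fun e => w2 (mul_left_cancel₀
        (L.T.c r).ne_zero (by simpa [mul_comm] using e)), fun v hv => by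
        have a := h (L.θ ⟨_, fix2 L hr (t := 1) (by simp)⟩) v hv
        have b := h (L.θ ⟨_, fix2 L hr w1⟩) v hv
        rw [hl, map_mul, End.mul_apply, ex, ex] at a b
        exact ⟨a, b⟩⟩) n hv
  obtain ⟨-, a, ha, e, -⟩ := f1 0 rfl
  obtain ⟨t, t0, ht⟩ := fix1 L ha
  have k2 : l (L.θ ⟨_, ht⟩) (cE6.hv _ 0) - cE6.hv _ 0 = -t • LieBasis.bv L.K (inr a) := by
    rw [hl, ex, LieBasis.X_hv, e]; simp
  have k3 : (-t • LieBasis.bv L.K (inr a) : LA L.K) (inr a) ≠ 0 := by simpa [LieBasis.bv_apply]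
  have k4 := k1 (A := Al.Fx l) (fun g v hv => by rwa [Al.mem_Fx.1 hv]) fun e => k3 (by
    rw [← k2, Al.mem_Fx.1 (e ▸ Submodule.mem_top), sub_self]; rfl)
  have k5 : (3 : L.K) ≠ 0 → ∀ {A : Submodule L.K (LA L.K)}, Sb l A → A ≠ ⊤ → A = ⊥ :=
    fun h3 A h n => eq_bot_iff.2 fun v hv => (Am.R2.cz (k1 h n v hv)).2
      ((mul_eq_zero.1 (Am.R2.cz (k1 h n v hv)).1).resolve_left h3)
  obtain ⟨E, hE⟩ := exists_embE6
  obtain ⟨γ, hγ⟩ := mulVec_injective_iff_isUnit.1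
    ((injective_iff_map_eq_zero (Gm E L.K).mulVecLin).2 fun v => Gm_inj E L.K hE)
  refine ⟨f, l, (Gm E L.K).mulVecLin.toAddMonoidHom.comp (L.φ.toAddMonoidHom.compLeft _), hf, hl,
    fun a v => ?_, (injective_iff_map_eq_zero _).2 fun v e => funext fun a =>
      (map_eq_zero L.φ).1 (congrFun (Gm_inj E L.K hE e) a),
    fun g v => ?_, fun g u v => ?_, fun u => Am.R2.ad_alt _ u, ?_,
    fun h3 => eq_bot_iff.2 fun v hv => (Am.R2.cz (k4 v hv)).2
      ((mul_eq_zero.1 (Am.R2.cz (k4 v hv)).1).resolve_left h3), by_contra fun n => k3 ?_,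
    fun h5 A h => or_iff_not_imp_right.2 (k5 (fun h3 => ?_) h)⟩
  · change Gm E L.K *ᵥ (L.φ ∘ (a • v)) = a ^ q • Gm E L.K *ᵥ (L.φ ∘ v)
    rw [← mulVec_smul, ← L.φ_eq]
    exact congrArg _ (funext fun _ => map_mul _ _ _)
  · have k : ∀ r t s, E.ε r = 1 → E.f r = s → f (L.ρ.x s (L.φ t)) =
        MulAut.conj γ (GeneralLinearGroup.map L.φ (f (L.ρ.x r t))) := fun r t s a b =>
      eq_mul_inv_of_mul_eq (Units.ext (by
        rw [Units.val_mul, Units.val_mul, hf, hf, hγ, LieBasis.val_xG, ← b, ← Gm_X E L.K a,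
          ← LieBasis.X_map']
        rfl))
    have h1 : f.comp L.T.σ =
        (MulAut.conj γ).toMonoidHom.comp ((GeneralLinearGroup.map L.φ).comp f) :=
      StRep.hom_ext_simple L.h.top
        (fun i t => (congrArg f (L.gr.σ_pos i t)).trans (k _ t _ (E.ε_simple i) (hE i)))
        fun i t => (congrArg f (L.gr.σ_neg i t)).trans
          (k _ t _ ((E.ε_neg _).trans (E.ε_simple i)) (by rw [E.f_neg, hE]))
    have h2 := congrArg Units.val (eq_mul_inv_iff_mul_eq.1 (DFunLike.congr_fun h1 g))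
    rw [Units.val_mul, Units.val_mul, hγ] at h2
    rw [e0, e0]
    change (f (L.T.σ g)).val *ᵥ Gm E L.K *ᵥ (L.φ ∘ v) = Gm E L.K *ᵥ (L.φ ∘ ((f g).val *ᵥ v))
    rw [mulVec_mulVec, show (f (L.T.σ g)).val * _ = _ from h2, ← mulVec_mulVec]
    exact congrArg _ (funext fun a => (L.φ.map_mulVec _ _ a).symm)
  · have : cE6.IsAut (f g).val := L.ρ.U_induction (p := fun g => cE6.IsAut (f g).val)
      (by rw [map_one]; exact cE6.isAut_one) (fun g r t _ _ ih => by
        rw [map_mul, Units.val_mul, hf, LieBasis.val_xG]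
        exact ih.mul (cE6.isAut_X r t)) (show g ∈ L.ρ.Gp from L.h.top ▸ Subgroup.mem_top _)
    rw [e0, e0, e0]
    change (f g).val *ᵥ cE6.ad L.K u *ᵥ v = cE6.ad L.K ((f g).val *ᵥ u) *ᵥ ((f g).val *ᵥ v)
    rw [mulVec_mulVec, mulVec_mulVec, this]
  · refine (LinearMap.finrank_le_finrank_of_injective (f := (LinearMap.proj (inl 0) :
      LA L.K →ₗ[L.K] L.K) ∘ₗ (Al.Fx l).subtype) ((injective_iff_map_eq_zero _).2 fun v e =>
        Subtype.ext ((Am.R2.cz (k4 v v.2)).2 e))).trans (finrank_self _).le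
  · refine (k1 (fun g v hv => ?_) n _ (k2 ▸ sub_mem_Cx _ _)).1 a
    simpa using add_mem (sub_mem_Cx (r := l) g v) hv
  · exact one_ne_zero (α := L.K) (by linear_combination 2 * h3 - h5)

end CF.An
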