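import Cfsg.Agent.An.TK
import Cfsg.Agent.Am.ST

/-! Alternating subgroups of `²E₆(q)`: tori in stabilisers of subspaces. -/

set_option autoImplicit false
set_option linter.unusedSectionVars false

namespace CF.An

open Module Function Cfsg.Lie CF.E83 CF.Al CF.Am CF.Chev CF.BN CF.ExA Matrix CF.Am.ST

variable {p q z : ℕ} [Fact p.Prime] {X : Type*} [Group X] [Finite X] {L : LS cE6 pE6 p q z X}
  {R R' : L.G →* End L.K (N L.K)} {ε : ℤ} {f : L.G →* GL (Fin 6 ⊕ Fin 72) L.K}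
  {l : X →* End L.K (LA L.K)} {Φ : LA L.K →+ LA L.K} {H : Subgroup X}

theorem ST.onto (D : Ld L f l Φ) {U : Submodule L.K (LA L.K)} (hφ : ∀ v ∈ U, Φ v ∈ U)
    {v : LA L.K} (hv : v ∈ U) : ∃ w ∈ U, Φ w = v := by
  have : RingHomSurjective L.φ := ⟨φ_surj L⟩
  let F : LA L.K →ₛₗ[L.φ] LA L.K := ⟨⟨Φ, Φ.map_add⟩, fun a v => by rw [L.φ_eq]; exact D.sm a v⟩
  rcases (show U.map F ≤ U by rintro _ ⟨w, m, rfl⟩; exact hφ w m).eq_or_lt with e | e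
  · exact e.ge hv
  · exact (not_strictAnti_of_wellFoundedLT _
      ((Submodule.map_strictMono_of_injective (f := F) D.inj).strictAnti_iterate_of_map_lt e)).elim

theorem ST.cm {g : L.G} {c e : Fin 6 → L.Kˣ} {a b : Yg L} (ha : a.1 = tc L g e) (hb : b.1 = tc L g c) :
    Commute (L.θ a) (L.θ b) := by
  refine Commute.map (Subtype.ext ?_) _
  rw [Subgroup.coe_mul, Subgroup.coe_mul, ha, hb, conj_mul, conj_mul, ← map_mul, ← map_mul, mul_comm e]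

variable (hz : z = Nat.gcd 3 (q + 1))
include hz

theorem no_torL {A : Type*} [Group A] {j : A →* X} (M : Mx H j) (D : Ld L f l Φ) (ir : Irr l)
    {U : Submodule L.K (LA L.K)} (h0 : U ≠ ⊥) (h1 : U ≠ ⊤)
    (hU : ∀ y : Yg L, L.θ y ∈ H → ∀ v ∈ U, X3.Ad f y v ∈ U) (hφ : ∀ v ∈ U, Φ v ∈ U)
    {I : Type*} {g : L.G} {c : I → Fin 6 → L.Kˣ} {Q : I → Yg L} (hQ : ∀ i, (Q i).1 = tc L g (c i))
    (E : Set (Yg L)) {k : ℕ} {y : Fin k → Fin 6 → ℤ} (hy : LinearIndependent ℤ y)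
    (h2 : ∀ j r, (∀ i, rv cE6 (c i) r = 1) → pr cE6 (y j) (cE6.vec r) = 0)
    (h3 : ∀ j (t : L.Kˣ), ∀ v ∈ U, X3.Ad f (tc L g fun a => t ^ y j a) v ∈ U)
    (h4 : ∀ j (t : L.Kˣ), ∀ e ∈ E, Commute (tc L g fun a => t ^ y j a) e.1) :
    ∃ T ≤ H, Tq q z k T ∧ (∀ s ∈ T, (∀ i, Commute s (L.θ (Q i))) ∧ ∀ e ∈ E, Commute s (L.θ e)) ∧
      (q = 5 → 2 ≤ k → Nat.card T = 12 → ∀ y' : Fin 6 → ℤ,
        (∀ r, (∀ i, rv cE6 (c i) r = 1) → pr cE6 y' (cE6.vec r) = 0) →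
        (∀ t : L.Kˣ, (∀ v ∈ U, X3.Ad f (tc L g fun a => t ^ y' a) v ∈ U) ∧
          ∀ e ∈ E, Commute (tc L g fun a => t ^ y' a) e.1) → ∀ t : L.Kˣ, t ^ 3 = 1 →
          ∃ a : Yg L, L.θ a ∈ T ∧ a.1 = tc L g fun a => t ^ y' a) := by
  have : Finite (Yg L) := L.frob.finite
  obtain ⟨T, hT, h, h'⟩ := exists_tk hz (g := g) (c := c) (fun i => hQ i ▸ (Q i).2)
    (Γ := St (X3.Ad f) U ⊓ Subgroup.centralizer (Subtype.val '' E)) (fun a ha => ⟨fun v hv => by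
      obtain ⟨w, hw, rfl⟩ := ST.onto D hφ hv
      exact D.fr a w ▸ hφ _ (ha.1 w hw), by
      rintro _ ⟨e, he, rfl⟩
      have := congrArg L.T.σ (ha.2 _ ⟨e, he, rfl⟩)
      rwa [map_mul, map_mul, show L.T.σ e.1 = e.1 from e.2] at this⟩) hy h2
    fun j t => ⟨h3 j t, by rintro _ ⟨e, he, rfl⟩; exact (h4 j t e he).symm⟩
  refine ⟨T, fun s hs => ?_, hT, fun s hs => ?_, fun a b c y' d e => h' a b c y' d fun t =>
    ⟨(e t).1, by rintro _ ⟨x, m, rfl⟩; exact ((e t).2 x m).symm⟩⟩ <;>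
    obtain ⟨a, rfl, ha, e, -, he⟩ := h s hs
  · refine st_mem (ce L hz) M (r := rY L (X3.Ad f)) (fun W w => ir W fun x v m => ?_) h0 h1 hU ha.1
    obtain ⟨x, rfl⟩ := L.surj x
    exact D.eq x ▸ w x v m
  exact ⟨fun i => ST.cm he (hQ i), fun e m =>
    Commute.map (Subtype.ext (ha.2 _ ⟨e, m, rfl⟩).symm) _⟩

theorem no_torN {A : Type*} [Group A] {j : A →* X} (M : Mx H j) (S : Sd L R R' ε)
    {U : Submodule L.K (N L.K)} (h0 : U ≠ ⊥) (h1 : U ≠ ⊤)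
    (hU : ∀ y : Yg L, L.θ y ∈ H → ∀ v ∈ U, R y v ∈ U)
    {I : Type*} {g : L.G} {c : I → Fin 6 → L.Kˣ} {Q : I → Yg L} (hQ : ∀ i, (Q i).1 = tc L g (c i))
    {k : ℕ} {y : Fin k → Fin 6 → ℤ} (hy : LinearIndependent ℤ y)
    (h2 : ∀ j r, (∀ i, rv cE6 (c i) r = 1) → pr cE6 (y j) (cE6.vec r) = 0)
    (sp : ∀ y' : Fin 6 → ℤ, (∀ r, (∀ i, rv cE6 (c i) r = 1) → pr cE6 y' (cE6.vec r) = 0) →
      ∃ a : Fin k → ℤ, (3 : ℤ) • y' = ∑ j, a j • y j)
    (h3 : ∀ j (t : L.Kˣ), ∀ v ∈ U, R (tc L g fun a => t ^ y j a) v ∈ U) :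
    ∃ T ≤ H, Tq q z k T ∧ ∀ s ∈ T, ∀ i, Commute s (L.θ (Q i)) := by
  have : Finite (Yg L) := L.frob.finite
  obtain ⟨T, hT, h⟩ := exists_tk' hz (g := g) (c := c) (fun i => hQ i ▸ (Q i).2) (Γ := St R U) hy h2
    fun y' e t => by
      obtain ⟨a, ha⟩ := sp y' e
      obtain ⟨s, hs⟩ := IsAlgClosed.exists_pow_nat_eq (t : L.K) (n := 3) (by norm_num)
      let u : L.Kˣ := .mk0 s fun o => t.ne_zero (by rw [← hs, o]; simp)
      have : (fun i => t ^ y' i) = ∏ j, fun i => (u ^ a j) ^ y j i := funext fun i => by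
        have : ∀ (Z : Finset (Fin k)) (f : Fin k → ℤ), ∏ i ∈ Z, u ^ f i = u ^ ∑ i ∈ Z, f i :=
          fun Z f => (map_sum (zpowersHom _ u |> MonoidHom.toAdditiveRight) f Z).symm
        have b := congrFun ha i
        simp only [Finset.prod_apply, ← _root_.zpow_mul, this, Finset.sum_apply, Pi.smul_apply,
          smul_eq_mul] at b ⊢
        rw [← b, _root_.zpow_mul, show u ^ (3 : ℤ) = t from Units.ext (by rw [← hs]; rfl)]
      rw [this]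
      exact Finset.prod_induction _ (fun x => tc L g x ∈ St R U)
        (fun x y m n => by simpa only [tc, map_mul, conj_mul] using mul_mem m n)
        (by simp [tc, one_mem]) fun j _ => h3 j _
  refine ⟨T, fun s hs => ?_, hT, fun s hs => ?_⟩ <;> obtain ⟨a, rfl, ha, e, -, he⟩ := h s hs
  · exact st_mem (ce L hz) M S.irr h0 h1 hU ha
  exact fun i => ST.cm he (hQ i)

theorem can_N {n : ℕ} (h5 : 5 ≤ n) {j : An n →* X} (M : Mx H j) {j' : An n →* Yg L}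
    (hj : ∀ g, L.θ (j' g) = j g) {U : Submodule L.K (N L.K)}
    (h : Can ((rY L R).comp j') U) : ∀ y : Yg L, L.θ y ∈ H → ∀ v ∈ U, R y v ∈ U := by
  have : Finite (Yg L) := L.frob.finite
  intro y hy
  obtain ⟨α, e⟩ := norm_lift (ce L hz) h5 M hj hy
  exact h (R y).toAddMonoidHom α fun a v => by
    simpa using congrArg (fun x : Yg L => R x v) (e a)

theorem can_L {A : Type*} [Group A] [Finite A] {j : A →* X} (M : Mx H j) (D : Ld L f l Φ)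
    {U : Submodule L.K (LA L.K)} (h : Can (l.comp j) U) :
    (∀ y : Yg L, L.θ y ∈ H → ∀ v ∈ U, X3.Ad f y v ∈ U) ∧ ∀ v ∈ U, Φ v ∈ U := by
  refine ⟨fun y hy => ?_, h Φ 1 fun a v => ?_⟩
  · obtain ⟨α, e⟩ := aut M hy
    rw [← D.eq]
    exact h (l (L.θ y)).toAddMonoidHom α fun a v => by
      simpa using congrArg (fun x => l x v) (e a)
  · obtain ⟨y, e⟩ := L.surj (j a)
    have := D.fr y v
    rw [show L.T.σ y.1 = y.1 from y.2, ← D.eq, e] at this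
    exact this.symm

end CF.An
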