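import Cfsg.Agent.An.A
import Cfsg.Agent.Am.TB

/-! The tables of fixed space dimensions of semisimple elements of `²E₆(q)`. -/

set_option autoImplicit false

namespace CF.An

open Module Function Cfsg.Lie CF.E83 CF.Al CF.Am CF.Chev CF.BN CF.ExA Matrix Finset
open CF.Am.TB (w72 nn chk nz_nn ad_coord re)

namespace TB

theorem pm (m q : ℕ) : (Pm pE6 q).map (↑) = -(q : ZMod m) • Mz cE6 m (cE6.wp l0E6) := by
  ext i j
  have : cE6.wp l0E6 (cE6.simple j) = cE6.neg (cE6.simple (pE6 j)) := by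
    rw [← wp_l0E6, ← RootSys.neg_aut (cE6.W_le_Aut (cE6.wp_mem_W _)), cE6.neg_neg]
  by_cases e : i = pE6 j <;> simp [Pm, Mz, Mw, this, cE6.cov_neg, cE6.cov_simple, e]

variable {p q z : ℕ} [Fact p.Prime] {X : Type*} [Group X] {L : LS cE6 pE6 p q z X}
  {R R' : L.G →* End L.K (N L.K)} {f : L.G →* GL (Fin 6 ⊕ Fin 72) L.K}

theorem cop {m : ℕ} (h : (m : L.K) ≠ 0) : m.Coprime p :=
  ((Nat.Prime.coprime_iff_not_dvd Fact.out).2 (mt (CharP.cast_eq_zero_iff L.K p m).2 h)).symm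

/-- The normal form of a rational semisimple element. -/
theorem nf {m k : ℕ} (hm : (m : L.K) ≠ 0) {x : Yg L} (hx : x ^ m = 1) (n1 : x ≠ 1)
    (e : IsConj x (x ^ k) ∨ m ∣ q + k) {P : List ℕ → List ℤ → Bool} (h : chk m k P) :
    ∃ (u : Fin 6 → ℤ) (s : Fin 6 → ℕ), (∀ i, pr cE6 u (cE6.vec (cE6.simple i)) = s i) ∧
      P (List.ofFn s) (List.ofFn u) ∧
      Coord L.h (fun j : ℕ => (x ^ j).1) fun j => j • fun i => (u i : ZMod m) := by
  have : NeZero m := ⟨by rintro rfl; simp at hm⟩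
  obtain ⟨Y, H⟩ := (in_top L).exists_coord (cop hm) hx
  obtain ⟨w, hw, u, s, h3, h4, h5⟩ := rat_E6 h (y := Y 1)
    (fun e => n1 (Subtype.ext (by simpa using H.zero_iff.1 e))) (by
      rcases e with e | e
      · obtain ⟨y, e⟩ := isConj_iff.1 e
        obtain ⟨w, hw, h3⟩ := H.conj y.1
        exact ⟨w, hw, (h3 1 k (by simpa using congrArg Subtype.val e)).trans (H.smul (by simp))⟩
      · obtain ⟨w, hw, h3⟩ := H.frob L.σ_tor
        have h0 := cE6.wp_mem_W l0E6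
        refine ⟨_, mul_mem (inv_mem h0) hw, ?_⟩
        rw [Mz_mul (inv_mem h0) hw, ← mulVec_mulVec,
          h3 1 (show L.T.σ (x ^ 1).1 = (x ^ 1).1 from (x ^ 1).2), pm, smul_mulVec, mulVec_smul,
          Mz_inv h0, ← Nat.cast_smul_eq_nsmul (ZMod m), neg_eq_of_add_eq_zero_right
            ((Nat.cast_add q k).symm.trans ((ZMod.natCast_eq_zero_iff _ m).2 e))])
  refine ⟨u, s, h4, h5, ?_⟩
  convert H.W hw using 2 with j j
  · rfl
  rw [H.smul (a := 1) (b := j) (k := j) (by simp), mulVec_smul, h3]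

theorem core (S : Sd L R R' 1) (hf : L.ρ.IsAdHom f) {m k : ℕ} (hm : (m : L.K) ≠ 0) {x : Yg L}
    (hx : x ^ m = 1) (n1 : x ≠ 1) (e : IsConj x (x ^ k) ∨ m ∣ q + k) {P : ℕ → ℕ → ℕ → ℕ → Prop}
    [∀ a b c d, Decidable (P a b c d)]
    (h : chk m k fun _ u => P (nn ExA.w27 m 1 u) (6 + nn w72 m 1 u) (nn ExA.w27 m 2 u) (6 + nn w72 m 2 u)) :
    P (dm (rY L R) x) (dm (rY L (X3.Ad f)) x) (dm (rY L R) (x ^ 2))
      (dm (rY L (X3.Ad f)) (x ^ 2)) := by
  have : NeZero m := ⟨by rintro rfl; simp at hm⟩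
  obtain ⟨u, s, -, h1, H⟩ := nf hm hx n1 e h
  have a : ∀ j, dm (rY L R) (x ^ j) = nn ExA.w27 m j (List.ofFn u) := fun j => by
    rw [← nz_nn, ← Rep.coord (R := R) (fun c a => by simpa only [one_mul] using S.tor c a) H, fx, dm, (fs_eig _).1]
    rfl
  have b : ∀ j, dm (rY L (X3.Ad f)) (x ^ j) = 6 + nn w72 m j (List.ofFn u) := fun j => by
    rw [← nz_nn, ← ad_coord hf H]
    rfl
  rwa [decide_eq_true_eq, ← a, ← a, ← b, ← b, pow_one] at h1

end TB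

open TB

variable {p q z : ℕ} [Fact p.Prime] {X : Type*} [Group X] [Finite X] {L : LS cE6 pE6 p q z X}
  {R R' : L.G →* End L.K (N L.K)} {f : L.G →* GL (Fin 6 ⊕ Fin 72) L.K}

omit [Finite X] in
theorem tb (S : Sd L R R' 1) (hf : L.ρ.IsAdHom f)
    (i : (2 : L.K) = 0 → ∀ x : Yg L, x ^ 2 = 1 → 15 ≤ dm R x.1 ∧ dm R x.1 ≠ 16) :
    TB q (rY L R) (rY L (X3.Ad f)) := by
  have h4 : (2 : L.K) ≠ 0 → ((4 : ℕ) : L.K) ≠ 0 := fun h => by
    rw [show ((4 : ℕ) : L.K) = 2 * 2 by norm_num]; exact mul_ne_zero h h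
  have n2 := fun (h : (2 : L.K) ≠ 0) (x : Yg L) (e : x ^ 2 = 1) (n : x ≠ 1) =>
    core S hf (m := 2) (k := 1) (by simpa) e n (.inl (by rw [pow_one]))
      (P := fun a b _ _ => (a = 15 ∧ b = 38) ∨ (a = 11 ∧ b = 46)) (by decide +kernel)
  have n3 := fun (h : (3 : L.K) ≠ 0) (x : Yg L) (e : x ^ 3 = 1) (n : x ≠ 1) (r : Re x) =>
    core S hf (m := 3) (by simpa) e n (re e r)
      (P := fun a b _ _ => (a = 9 ∧ (b = 24 ∨ b = 30)) ∨ (a = 15 ∧ b = 36)) (by decide +kernel)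
  have n4 := fun (h : (2 : L.K) ≠ 0) (x : Yg L) (e : x ^ 4 = 1) (n : x ≠ 1) (r : Re x) =>
    core S hf (m := 4) (h4 h) e n (re e r)
      (P := fun a b c d => (d = 46 → 22 ≤ b) ∧ (d = 38 → b = 20 ∨ b = 36) ∧
        (c = 15 → (a = 7 ∧ b = 20) ∨ (a = 9 ∧ b = 20) ∨ (a = 15 ∧ b = 36))) (by decide +kernel)
  have n5 := fun (h : (5 : L.K) ≠ 0) (x : Yg L) (e : x ^ 5 = 1) (n : x ≠ 1) (r : Re x) =>
    core S hf (m := 5) (by simpa) e n (re e r) (P := fun a b _ _ => 5 ≤ a ∧ 16 ≤ b)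
      (by decide +kernel)
  have r5 : (5 : L.K) ≠ 0 → ∀ x : Yg L, x ^ 5 = 1 → x ≠ 1 →
      IsConj x (x ^ 2) ∨ q % 5 = 2 ∨ q % 5 = 3 →
        dm (rY L R) x = 7 ∧ dm (rY L (X3.Ad f)) x = 18 := fun h x e n r =>
    (or_assoc.2 (r.imp_right Or.symm)).elim (fun r => core S hf (m := 5) (by simpa) e n
      (r.imp_right (by omega)) (P := fun a b _ _ => a = 7 ∧ b = 18) (by decide +kernel)) fun r =>
        core S hf (m := 5) (k := 3) (by simpa) e n (.inr (by omega))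
          (P := fun a b _ _ => a = 7 ∧ b = 18) (by decide +kernel)
  have n7 := fun (h : (7 : L.K) ≠ 0) (x : Yg L) (e : x ^ 7 = 1) (n : x ≠ 1) (r : IsConj x (x ^ 2)) =>
    core S hf (m := 7) (by simpa) e n (.inl r) (P := fun a b _ _ =>
      (a = 0 ∧ b = 30) ∨ (a = 3 ∧ b = 12) ∨ (a = 9 ∧ b = 18)) (by decide +kernel)
  refine ⟨⟨L.cast_q, ?_, by simp, fun h x e n => ?_, fun h x e n r => ?_, fun h x e n r => ?_,
    fun h x e n r => ⟨(n5 h x e n r).2, fun k => (r5 h x e n k).2⟩, fun h h' x e r => ?_,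
    fun h x e n r => ?_⟩, by simp, i, n2, fun h x e n r => ?_, fun h x e r d => ?_,
    fun h x e n r => ⟨(n5 h x e n r).1, fun k => (r5 h x e n k).1⟩, n7⟩
  · obtain ⟨M, h, rfl⟩ := L.pow
    exact Nat.one_lt_pow h.ne' (Fact.out : p.Prime).one_lt
  · have := n2 h x e n
    omega
  · have := n3 h x e n r
    omega
  · have := n2 h (x ^ 2) (by rwa [← pow_mul]) n
    have := n4 h x e (by rintro rfl; simp at n) r
    omega
  · by_cases n : x = 1
    · simp [n, dm_one]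
    exact core S hf (m := 6) (by
      rw [show ((6 : ℕ) : L.K) = 2 * 3 by norm_num]; exact mul_ne_zero h h') e n (re e r)
      (P := fun _ b _ d => (d = 24 → 12 ≤ b) ∧ (d = 30 → 14 ≤ b) ∧ (d = 36 → 18 ≤ b))
      (by decide +kernel)
  · have := n7 h x e n r
    omega
  · have := n3 h x e n r
    omega
  · exact (n4 h x e (by rintro rfl; simp [dm_one] at d) r).2.2 d

end CF.An
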