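import Cfsg.Agent.Am.TK

/-! The fixed points of a twisted Frobenius map on a stable subtorus: generic part. -/

set_option autoImplicit false

namespace CF.An.TK

open Module Function Cfsg.Lie CF.Chev CF.BN CF.ExA Matrix CF.Am

theorem det_le {B : Type} [Fintype B] [DecidableEq B] {M : Matrix B B ℤ} {d : ℕ} (hd : 0 < d) (h : M ^ d = 1) (q : ℕ) :
    ((q : ℤ) • M - 1).det.natAbs ≤ (q + 1) ^ Fintype.card B := by
  set N := (Int.castRingHom ℂ).mapMatrix M with hN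
  replace h : N ^ d = 1 := by rw [hN, ← map_pow, h, map_one]
  have h1 := (Int.castRingHom ℂ).map_det ((q : ℤ) • M - 1)
  rw [map_sub, map_zsmul, map_one, ← hN, det_eq_prod_roots_charpoly] at h1
  have h2 : ∀ μ ∈ ((q : ℤ) • N - 1).charpoly.roots.map (‖·‖₊), μ ≤ ((q + 1 : ℕ) : NNReal) := by
    simp only [Multiset.mem_map]
    rintro _ ⟨μ, hμ, rfl⟩
    have h3 := (Polynomial.mem_roots'.1 hμ).2
    rw [Polynomial.IsRoot.def, eval_charpoly] at h3
    obtain ⟨v, hv, e⟩ := exists_mulVec_eq_zero_iff.2 h3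
    have h4 : (q : ℂ) • N *ᵥ v = (μ + 1) • v := by
      rw [sub_mulVec, sub_mulVec, one_mulVec, sub_eq_zero, eq_sub_iff_add_eq] at e
      rw [add_smul, one_smul, ← smul_mulVec, Nat.cast_smul_eq_nsmul, ← natCast_zsmul, ← e]
      simp
    have h5 : ∀ j, (q : ℂ) ^ j • (N ^ j) *ᵥ v = (μ + 1) ^ j • v := fun j => by
      induction' j with j ih
      · simp
      · rw [pow_succ N, ← mulVec_mulVec, pow_succ (q : ℂ), mul_smul, ← mulVec_smul, h4, mulVec_smul,
          smul_comm, ih, smul_smul, pow_succ']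
    have h6 := h5 d
    rw [h, one_mulVec] at h6
    have h7 := congrArg (‖·‖) (smul_left_injective ℂ hv h6)
    simp only [norm_pow, Complex.norm_natCast] at h7
    have h8 := (pow_left_inj₀ (by positivity) (by positivity) hd.ne').1 h7
    have h9 := norm_sub_le (μ + 1) 1
    rw [add_sub_cancel_right, norm_one, ← h8] at h9
    rw [← NNReal.coe_le_coe, coe_nnnorm]
    simpa using h9
  have h3 := Multiset.prod_le_pow_card _ _ h2
  rw [Multiset.card_map, IsAlgClosed.card_roots_eq_natDegree, charpoly_natDegree_eq_dim,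
    show (‖·‖₊) = (nnnormHom : ℂ →*₀ NNReal) from rfl, ← map_multiset_prod, ← h1] at h3
  have h4 : nnnormHom ((Int.castRingHom ℂ) ((q : ℤ) • M - 1).det) =
      (((q : ℤ) • M - 1).det.natAbs : NNReal) := by
    ext; simp only [nnnormHom_apply, eq_intCast, coe_nnnorm, Complex.norm_intCast, NNReal.coe_natCast,
      Nat.cast_natAbs, Int.cast_abs]
  exact_mod_cast h4.symm.trans_le h3

theorem neg_one {M : Matrix (Fin 2) (Fin 2) ℤ} {d : ℕ} (hd : 0 < d) (h : M ^ d = 1)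
    (e : ((5 : ℤ) • M - 1).det.natAbs = 36) : M = -1 := by
  have h1 := det_le hd h 1
  have h2 := Int.isUnit_iff.1 (IsUnit.of_pow_eq_one (a := M.det) (n := d)
    (by rw [← det_pow, h, det_one]) hd.ne')
  simp only [det_fin_two, Matrix.sub_apply, Matrix.smul_apply, smul_eq_mul, one_apply_eq, Nat.cast_one,
    one_mul, Fintype.card_fin, one_apply_ne (show (0 : Fin 2) ≠ 1 by decide), sub_zero,
    one_apply_ne (show (1 : Fin 2) ≠ 0 by decide)] at h1 h2 e
  rw [show ∀ a b c d : ℤ, (a - 1) * (d - 1) - b * c = (a * d - b * c) - (a + d) + 1 by intros; ring] at h1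
  rw [show ∀ a b c d : ℤ, (5 * a - 1) * (5 * d - 1) - 5 * b * (5 * c) =
    25 * (a * d - b * c) - 5 * (a + d) + 1 by intros; ring] at e
  obtain ⟨k1, k2⟩ : M 0 0 * M 1 1 - M 0 1 * M 1 0 = 1 ∧ M 0 0 + M 1 1 = -2 := by omega
  have h3 : (M + 1) * (M + 1) = 0 := by
    ext i j
    fin_cases i <;> fin_cases j <;> simp [Matrix.mul_apply, Fin.sum_univ_two]
    · linear_combination (M 0 0) * k2 - k1
    · linear_combination (M 0 1) * k2
    · linear_combination (M 1 0) * k2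
    · linear_combination (M 1 1) * k2 - k1
  have h4 : ∀ j : ℕ, (-M) ^ j = 1 - j • (M + 1) := fun j => by
    induction' j with j ih
    · simp
    · rw [pow_succ, ih, show -M = 1 - (M + 1) by abel, sub_mul, one_mul, mul_sub, mul_one, smul_mul_assoc,
        h3, smul_zero, sub_zero, succ_nsmul]
      abel
  have h5 := h4 (2 * d)
  rw [(even_two_mul d).neg_pow, mul_comm, pow_mul, h, one_pow, eq_comm, sub_eq_self] at h5
  refine eq_neg_of_add_eq_zero_left (Matrix.ext fun i j => ?_)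
  exact (nsmul_eq_zero_iff.1 (congrFun (congrFun h5 i) j)).resolve_right (by omega)

variable {B ι : Type} [Fintype B] [DecidableEq B] [Fintype ι] [DecidableEq ι] {C : ChevBasis B ι}
  {π : Equiv.Perm B} {p q z : ℕ} [Fact p.Prime] {X : Type*} [Group X] {L : LS C π p q z X}

/-- The fixed points on the largest subtorus inside `Γ`. -/
theorem gen (hπ : G1.Gr C π) {I : Type*} {g : L.G} {c : I → B → L.Kˣ}
    (hQ : ∀ i, L.T.σ (g * L.h.r3.tor (c i) * g⁻¹) = g * L.h.r3.tor (c i) * g⁻¹) {Γ : Subgroup L.G}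
    (hΓ : (∀ a ∈ Γ, L.T.σ a ∈ Γ) ∨ ∀ y' : B → ℤ, (∀ r, (∀ i, rv C (c i) r = 1) → pr C y' (C.vec r) = 0) →
      ∀ t : L.Kˣ, g * L.h.r3.tor (fun a => t ^ y' a) * g⁻¹ ∈ Γ) {k : ℕ} {y : Fin k → B → ℤ} (hy : LinearIndependent ℤ y)
    (h1 : ∀ j r, (∀ i, rv C (c i) r = 1) → pr C (y j) (C.vec r) = 0)
    (h2 : ∀ j (t : L.Kˣ), g * L.h.r3.tor (fun a => t ^ y j a) * g⁻¹ ∈ Γ) :
    ∃ (n d : ℕ) (M : Matrix (Fin n) (Fin n) ℤ) (ψ : (mp (A := L.Kˣ) ((q : ℤ) • M - 1)).ker →* BN.Fx L.T.σ),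
      k ≤ n ∧ 0 < d ∧ M ^ d = 1 ∧ Injective ψ ∧
      Nat.card (mp (A := L.Kˣ) ((q : ℤ) • M - 1)).ker = ((q : ℤ) • M - 1).det.natAbs ∧
      (∀ s, (ψ s).1 ∈ Γ ∧ ∃ e, (∀ r, (∀ i, rv C (c i) r = 1) → rv C e r = 1) ∧
        (ψ s).1 = g * L.h.r3.tor e * g⁻¹) ∧
      ∀ y' : B → ℤ, (∀ r, (∀ i, rv C (c i) r = 1) → pr C y' (C.vec r) = 0) →
        (∀ t : L.Kˣ, g * L.h.r3.tor (fun a => t ^ y' a) * g⁻¹ ∈ Γ) → ∃ a : Fin n → ℤ, ∀ (t : L.Kˣ) ht,
          (ψ ⟨fun j => t ^ a j, ht⟩).1 = g * L.h.r3.tor (fun a => t ^ y' a) * g⁻¹ := by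
  obtain ⟨τ, hτ, h0⟩ := hπ
  obtain ⟨w, hw, h3, h4⟩ := G2.exists_v L hτ h0 (T := Set.range c) (by rintro _ ⟨i, rfl⟩; exact hQ i)
  simp only [Set.forall_mem_range] at h3 h4
  have hv := mul_mem (C.W_le_Aut hw) hτ
  generalize w * τ = v at h3 h4 hv
  let χ : (B → L.Kˣ) →* L.G := (MulAut.conj g).toMonoidHom.comp L.h.r3.tor
  have hχ : ∀ e, χ e = g * L.h.r3.tor e * g⁻¹ := fun _ => rfl
  let P : Submodule ℤ (B → ℤ) :=
    { carrier := {y | (∀ r, (∀ i, rv C (c i) r = 1) → pr C y (C.vec r) = 0) ∧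
        ∀ t : L.Kˣ, (fun a => t ^ y a) ∈ Γ.comap χ}
      add_mem' := fun a b => ⟨fun r hr => by rw [pr_add, a.1 r hr, b.1 r hr, add_zero], fun t => by
        simp only [Pi.add_apply, _root_.zpow_add]; exact mul_mem (a.2 t) (b.2 t)⟩
      zero_mem' := ⟨fun r _ => by simp [pr_apply], fun t => by
        simp only [Pi.zero_apply, zpow_zero]; exact one_mem _⟩
      smul_mem' := fun m _ a => ⟨fun r hr => by rw [pr_smul, a.1 r hr, mul_zero], fun t => by
        simpa only [Pi.smul_apply, smul_eq_mul, _root_.zpow_mul] using a.2 (t ^ m)⟩ }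
  have k1 : ∀ {y}, y ∈ P → ∀ t : L.Kˣ, ∀ r, (∀ i, rv C (c i) r = 1) → rv C (fun a => t ^ y a) r = 1 :=
    fun hy t r hr => by
      have := hy.1 r hr
      rw [pr_vec] at this
      simp only [rv_eq, ← _root_.zpow_mul, ← zpow_sum', this, zpow_zero]
  have : IsTorsionFree ℤ ((B → ℤ) ⧸ P) := .of_smul_eq_zero fun m x e => or_iff_not_imp_left.2 fun hm => by
    obtain ⟨x, rfl⟩ := P.mkQ_surjective x
    replace e : (m.natAbs : ℤ) • x ∈ P := by
      have : m • x ∈ P := (Submodule.Quotient.mk_eq_zero _).1 e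
      rcases Int.natAbs_eq m with k | k
      exacts [k ▸ this, by simpa using P.neg_mem (k ▸ this :)]
    refine (Submodule.Quotient.mk_eq_zero _).2 ⟨fun r hr => ?_, fun t => ?_⟩
    · have := e.1 r hr
      rw [pr_smul] at this
      simpa [hm] using this
    · obtain ⟨s, rfl⟩ := Am.TK.root t (Int.natAbs_pos.2 hm)
      simpa only [Pi.smul_apply, smul_eq_mul, _root_.zpow_mul, zpow_natCast] using e.2 s
  let f := (Module.finBasis ℤ ((B → ℤ) ⧸ P)).equivFun.toLinearMap ∘ₗ P.mkQ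
  have hf : f.ker = P := by simp [f]
  have q0 : 0 < q := by obtain ⟨M, -, rfl⟩ := L.pow; exact pow_pos (Fact.out : p.Prime).pos _
  obtain ⟨Λ, Δ, M, h5, h6, h7⟩ := G1.exists_sub f (A := Mw C v) fun y hy => by
    rw [hf] at hy ⊢
    have k0 : ∀ r, (∀ i, rv C (c i) r = 1) → pr C (Mw C v *ᵥ y) (C.vec r) = 0 := fun r hr => by
      obtain ⟨r, rfl⟩ := v.surjective r
      rw [pr_Mw hv, hy.1 r fun i => ?_]
      rw [← G1.rv_pow, ← rv_Mw hv, h3 i, hr i]
    refine ⟨k0, fun t => hΓ.elim (fun hΓ => ?_) fun hΓ => hΓ _ k0 t⟩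
    · obtain ⟨s, rfl⟩ := Am.TK.root t q0
      have := hΓ _ (hy.2 s)
      rw [hχ, h4 _ (k1 hy s)] at this
      refine Subgroup.mem_comap.2 (hχ _ ▸ (congrArg (fun e => g * L.h.r3.tor e * g⁻¹ ∈ Γ) (funext fun a => ?_)).mp this)
      simp only [mp_apply, Pi.pow_apply, ← zpow_natCast, ← _root_.zpow_mul, ← zpow_sum', mulVec,
        dotProduct, Finset.mul_sum]
      exact congrArg _ (Finset.sum_congr rfl fun _ _ => by ring)
  have hk : k ≤ finrank ℤ f.ker := by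
    simpa using (LinearIndependent.of_comp f.ker.subtype
      (v := fun j => (⟨y j, hf.ge ⟨h1 j, h2 j⟩⟩ : f.ker)) hy).fintype_card_le_finrank
  have sj : ∀ y ∈ f.ker, Λ *ᵥ (Δ *ᵥ y) = y := fun y hy => by
    have m : ∀ a, Λ *ᵥ a ∈ f.ker := fun a => by
      rw [mulVec_eq_sum]
      exact Submodule.sum_mem _ fun j _ => by simpa using f.ker.smul_mem (a j) (h7 j)
    have := OrzechProperty.injective_of_surjective_of_injective (Module.finBasis ℤ f.ker).equivFun.toLinearMap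
      (Δ.mulVecLin ∘ₗ f.ker.subtype) (LinearEquiv.injective _) fun a => ⟨⟨_, m a⟩, by
        simp [mulVec_mulVec, h5]⟩
    exact congrArg Subtype.val (this (a₁ := ⟨_, m _⟩) (a₂ := ⟨y, hy⟩) (by
      simp [mulVec_mulVec, ← Matrix.mul_assoc, h5]))
  simp only [hf] at h7 sj
  generalize finrank ℤ f.ker = n at Λ Δ M h5 h6 h7 hk sj
  have h8 : ∀ m, Mw C v ^ m * Λ = Λ * M ^ m := fun m => by
    induction' m with m ih
    · simp
    · rw [pow_succ, Matrix.mul_assoc, h6, ← Matrix.mul_assoc, ih, Matrix.mul_assoc, pow_succ]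
  have h9 : M ^ orderOf v = 1 := by
    rw [← Matrix.one_mul (M ^ _), ← h5, Matrix.mul_assoc, ← h8, ← Mw_pow hv, pow_orderOf_eq_one,
      Mw_one, Matrix.one_mul]
  have e1 : ∀ t : _ → L.Kˣ, mp Λ t = ∏ j, fun a => t j ^ Λᵀ j a := fun t => funext fun a => by
    simp [mp_apply]
  have e2 : ∀ t : _ → L.Kˣ, ∀ r, (∀ i, rv C (c i) r = 1) → rv C (mp Λ t) r = 1 := fun t r hr => by
    rw [rv_eq]
    refine (prod_prod_zpow t (fun j k => Λ j k) _).trans (Finset.prod_eq_one fun j _ => ?_)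
    have := (h7 j).1 r hr
    rw [pr_vec] at this
    simp only [transpose_apply] at this
    simp [this]
  have e3 := card_ker_mp (K := L.K) (E := (q : ℤ) • M - 1) (by
    have := (Int.castRingHom L.K).map_det ((q : ℤ) • M - 1)
    rw [show RingHom.mapMatrix _ _ = -1 by
      ext i j
      change (((q : ℤ) * M i j - (1 : Matrix _ _ ℤ) i j : ℤ) : L.K) = _
      by_cases h : i = j <;> simp [L.cast_q, h, one_apply]] at this
    exact this.trans_ne (by simp [det_neg]))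
  have e4 : ∀ t : (mp ((q : ℤ) • M - 1)).ker, (χ.comp (mp Λ)).comp (Subgroup.subtype _) t ∈ BN.Fx L.T.σ :=
    fun ⟨t, ht⟩ => by
    have : mp ((q : ℤ) • M - 1) t = 1 := ht
    rw [sub_eq_add_neg, mp_add, ← neg_one_smul ℤ (1 : Matrix _ _ ℤ), mp_smul, mp_smul, mp_one,
      _root_.zpow_neg_one, mul_inv_eq_one, zpow_natCast] at this
    change L.T.σ (χ (mp Λ t)) = χ (mp Λ t)
    rw [hχ, h4 _ (e2 t), map_pow, mp_mp, h6, ← mp_mp, ← map_pow, this]
  refine ⟨n, _, M, MonoidHom.codRestrict _ _ e4, hk, orderOf_pos v, h9, fun a b e => ?_, e3, fun t =>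
    ⟨show mp Λ t.1 ∈ Γ.comap χ from e1 _ ▸ prod_mem fun j _ => (h7 j).2 _, _, e2 t, rfl⟩,
    fun y a b => ⟨Δ *ᵥ y, fun t _ => congrArg χ (funext fun i => ?_)⟩⟩
  · have : χ (mp Λ a) = χ (mp Λ b) := congrArg Subtype.val e
    rw [hχ, hχ, mul_left_inj, mul_right_inj] at this
    have := congrArg (mp Δ) (L.h.inj this)
    exact Subtype.ext (by simpa [mp_mp, h5, mp_one] using this)
  · conv_rhs => rw [← sj y ⟨a, b⟩]
    change mp Λ (fun j => t ^ (Δ *ᵥ y) j) i = _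
    generalize Δ *ᵥ y = u
    simp only [mp_apply, ← _root_.zpow_mul, ← zpow_sum', mulVec, dotProduct]
    exact congrArg _ (Finset.sum_congr rfl fun _ _ => by ring)

end CF.An.TK
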