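import Cfsg.Agent.An.A
import Cfsg.Agent.An.TK0

/-! The fixed points of the twisted Frobenius map on a stable subtorus. -/

set_option autoImplicit false

namespace CF.An

open Module Function Cfsg.Lie CF.Am CF.Chev CF.BN CF.ExA Matrix

variable {p q z : ℕ} [Fact p.Prime] {X : Type*} [Group X] [Finite X] {L : LS cE6 pE6 p q z X}
  (hz : z = Nat.gcd 3 (q + 1))
include hz

theorem TK.main {I : Type*} {g : L.G} {c : I → Fin 6 → L.Kˣ}
    (hQ : ∀ i, L.T.σ (tc L g (c i)) = tc L g (c i)) {Γ : Subgroup L.G} (hΓ : (∀ a ∈ Γ, L.T.σ a ∈ Γ) ∨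
      ∀ y' : Fin 6 → ℤ, (∀ r, (∀ i, rv cE6 (c i) r = 1) → pr cE6 y' (cE6.vec r) = 0) →
      ∀ t : L.Kˣ, tc L g (fun a => t ^ y' a) ∈ Γ)
    {k : ℕ} {y : Fin k → Fin 6 → ℤ} (hy : LinearIndependent ℤ y)
    (h1 : ∀ j r, (∀ i, rv cE6 (c i) r = 1) → pr cE6 (y j) (cE6.vec r) = 0)
    (h2 : ∀ j (t : L.Kˣ), tc L g (fun a => t ^ y j a) ∈ Γ) :
    ∃ T : Subgroup X, Tq q z k T ∧ (∀ s ∈ T, ∃ a : Yg L, L.θ a = s ∧ a.1 ∈ Γ ∧
      ∃ e, (∀ r, (∀ i, rv cE6 (c i) r = 1) → rv cE6 e r = 1) ∧ a.1 = tc L g e) ∧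
      (q = 5 → 2 ≤ k → Nat.card T = 12 → ∀ y' : Fin 6 → ℤ,
        (∀ r, (∀ i, rv cE6 (c i) r = 1) → pr cE6 y' (cE6.vec r) = 0) →
        (∀ t : L.Kˣ, tc L g (fun a => t ^ y' a) ∈ Γ) → ∀ t : L.Kˣ, t ^ 3 = 1 →
          ∃ a : Yg L, L.θ a ∈ T ∧ a.1 = tc L g fun a => t ^ y' a) := by
  obtain ⟨n, d, M, ψ, hk, hd, hM, inj, cd, h, h'⟩ := TK.gen G1.gr_E6 hQ hΓ hy h1 h2
  have le := G1.le_det hd hM q
  rw [Fintype.card_fin, ← cd] at le
  have hq : 0 < q - 1 := by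
    obtain ⟨M, hM, e⟩ := L.pow
    exact Nat.sub_pos_of_lt (e ▸ Nat.one_lt_pow hM.ne' (Fact.out : p.Prime).one_lt)
  have z0 : 0 < z := hz ▸ Nat.gcd_pos_of_pos_left _ (by norm_num)
  have fk : Finite L.θ.ker := Nat.finite_of_card_ne_zero (L.card_ker.trans_ne z0.ne')
  have e1 := (L.θ.comp ψ).ker.card_mul_index
  rw [Subgroup.index_ker] at e1
  have e2 : Nat.card (L.θ.comp ψ).ker ≤ z := (Nat.card_le_card_of_injective
    (β := L.θ.ker) (fun s => ⟨ψ s.1, s.2⟩) fun a b e => Subtype.ext (inj (congrArg Subtype.val e))).trans_eq L.card_ker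
  have e4 : Nat.card (L.θ.comp ψ).ker ∣ z := (Subgroup.card_dvd_of_injective
    ((ψ.comp (L.θ.comp ψ).ker.subtype).codRestrict L.θ.ker fun s => s.2)
    fun a b e => Subtype.ext (inj (congrArg Subtype.val e))).trans L.card_ker.dvd
  have e5 := (Int.castRingHom (ZMod q)).map_det ((q : ℤ) • M - 1)
  rw [show RingHom.mapMatrix _ _ = -1 by
    ext i j
    change (((q : ℤ) * M i j - (1 : Matrix _ _ ℤ) i j : ℤ) : ZMod q) = _
    by_cases h : i = j <;> simp [h, one_apply]] at e5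
  refine ⟨(L.θ.comp ψ).range, ⟨⟨((Nat.pow_le_pow_right hq hk).trans le).trans
    (e1 ▸ Nat.mul_le_mul_right _ e2), fun k0 m hm e => ?_, ?_, ?_⟩, ?_, _, n, e4, hk, le.trans_eq e1.symm, ?_, ?_⟩,
    ?_, ?_⟩
  · have : NeZero (m * z) := ⟨(Nat.mul_pos hm z0).ne'⟩
    have h4 := Nat.card_le_card_of_injective (β := Fin n → rootsOfUnity (m * z) L.K)
      (fun s : (mp (A := L.Kˣ) ((q : ℤ) • M - 1)).ker => fun i => ⟨s.1 i, congrFun (congrArg Subtype.val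
        (inj (a₁ := s ^ (m * z)) (a₂ := 1) (by
          have := pow_card_eq_one' (x := (⟨ψ s ^ m, (map_pow L.θ _ _).trans (e _ ⟨s, rfl⟩)⟩ : L.θ.ker))
          rw [L.card_ker] at this
          rw [map_pow, pow_mul, map_one]
          exact congrArg Subtype.val this))) i⟩)
      fun a b e => Subtype.ext (funext fun i => congrArg Subtype.val (congrFun e i))
    rw [Nat.card_fun, Nat.card_eq_fintype_card (α := Fin _), Fintype.card_fin] at h4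
    have := (Nat.pow_le_pow_iff_left (k0.trans_le hk).ne').1 (le.trans (h4.trans
      (Nat.pow_le_pow_left (card_rootsOfUnity L.K _) _)))
    omega
  · refine Nat.Coprime.coprime_dvd_left (Dvd.intro_left _ e1) ?_
    rw [cd, ← Int.natAbs_natCast q, ← Int.isCoprime_iff_nat_coprime, isCoprime_comm,
      ← ZMod.coe_int_isUnit_iff_isCoprime]
    exact (congrArg IsUnit e5).mpr (by simpa [det_neg] using isUnit_one.neg.pow n)
  · rintro rfl k3 e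
    obtain rfl : z = 1 := hz
    have e3 : Nat.card (L.θ.comp ψ).ker = 1 := by
      refine le_antisymm e2 (Nat.pos_of_ne_zero fun k => ?_)
      rw [k, zero_mul] at e1
      exact absurd (e1 ▸ le) (by simp)
    rw [e3, one_mul] at e1
    rw [e1] at e
    obtain rfl : n = 3 := le_antisymm (by_contra fun n4 => by
      have := (Nat.pow_le_pow_right hq (show 4 ≤ n by omega)).trans (le.trans (Nat.le_of_dvd (by norm_num) e))
      omega) (k3.trans hk)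
    exact Am.TK.det_ten hd hM (cd ▸ e)
  · rintro _ ⟨s, rfl⟩ _ ⟨t, rfl⟩
    exact (Commute.all s t).map _
  · rw [e1, cd]
    simpa only [Fintype.card_fin] using TK.det_le hd hM q
  · rw [e1, cd, ← ZMod.natCast_eq_natCast_iff, ← ZMod.natCast_eq_natCast_iff]
    rw [det_neg, det_one, mul_one, eq_intCast] at e5
    have : ((((q : ℤ) • M - 1).det.natAbs : ℤ) : ZMod q) = 1 ∨
        ((((q : ℤ) • M - 1).det.natAbs : ℤ) : ZMod q) = -1 := by
      rcases Int.natAbs_eq_iff.1 (rfl : ((q : ℤ) • M - 1).det.natAbs = _) with k | k <;>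
        rw [k] at e5 <;> rcases neg_one_pow_eq_or (ZMod q) (Fintype.card (Fin n)) with u | u <;>
        rw [u] at e5
      exacts [.inl e5, .inr e5, .inr (by rw [← e5]; simp), .inl (by simpa using e5)]
    rw [Int.cast_natCast] at this
    exact this.imp (·.trans Nat.cast_one.symm) fun u => by
      rw [Nat.cast_add, u, Nat.cast_one, neg_add_cancel, Nat.cast_zero]
  · rintro _ ⟨s, rfl⟩
    exact ⟨_, rfl, h s⟩
  · rintro rfl k2 e y' a b t ht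
    obtain rfl : z = 3 := hz
    rw [e] at e1
    have e6 : 4 ^ 2 ≤ 4 ^ n := Nat.pow_le_pow_right (by norm_num) (k2.trans hk)
    rw [← e1] at le
    change 4 ^ n ≤ _ at le
    have e7 := (Nat.dvd_prime Nat.prime_three).1 e4
    obtain rfl : n = 2 := le_antisymm (by_contra fun n3 => by
      have : 4 ^ 3 ≤ 4 ^ n := Nat.pow_le_pow_right (by norm_num) (by omega)
      omega) (k2.trans hk)
    obtain rfl := TK.neg_one hd hM (by rw [← Nat.cast_ofNat (n := 5), ← cd]; omega)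
    obtain ⟨u, hu⟩ := h' y' a b
    refine ⟨ψ ⟨fun j => t ^ u j, ?_⟩, ⟨_, rfl⟩, hu t _⟩
    rw [MonoidHom.mem_ker, show (((5 : ℕ) : ℤ) • (-1 : Matrix (Fin 2) (Fin 2) ℤ) - 1) = (-6 : ℤ) • 1 by
      decide, mp_smul, mp_one]
    funext j
    rw [Pi.pow_apply, ← _root_.zpow_mul, show u j * -6 = (3 : ℕ) * (-2 * u j) by push_cast; ring,
      _root_.zpow_mul, zpow_natCast, ht, _root_.one_zpow, Pi.one_apply]

theorem exists_tk {I : Type*} {g : L.G} {c : I → Fin 6 → L.Kˣ}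
    (hQ : ∀ i, L.T.σ (tc L g (c i)) = tc L g (c i)) {Γ : Subgroup L.G} (hΓ : ∀ a ∈ Γ, L.T.σ a ∈ Γ)
    {k : ℕ} {y : Fin k → Fin 6 → ℤ} (hy : LinearIndependent ℤ y)
    (h1 : ∀ j r, (∀ i, rv cE6 (c i) r = 1) → pr cE6 (y j) (cE6.vec r) = 0)
    (h2 : ∀ j (t : L.Kˣ), tc L g (fun a => t ^ y j a) ∈ Γ) :
    ∃ T : Subgroup X, Tq q z k T ∧ (∀ s ∈ T, ∃ a : Yg L, L.θ a = s ∧ a.1 ∈ Γ ∧
      ∃ e, (∀ r, (∀ i, rv cE6 (c i) r = 1) → rv cE6 e r = 1) ∧ a.1 = tc L g e) ∧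
      (q = 5 → 2 ≤ k → Nat.card T = 12 → ∀ y' : Fin 6 → ℤ,
        (∀ r, (∀ i, rv cE6 (c i) r = 1) → pr cE6 y' (cE6.vec r) = 0) →
        (∀ t : L.Kˣ, tc L g (fun a => t ^ y' a) ∈ Γ) → ∀ t : L.Kˣ, t ^ 3 = 1 →
          ∃ a : Yg L, L.θ a ∈ T ∧ a.1 = tc L g fun a => t ^ y' a) :=
  TK.main hz hQ (.inl hΓ) hy h1 h2

/-- The whole connected centre. -/
theorem exists_tk' {I : Type*} {g : L.G} {c : I → Fin 6 → L.Kˣ}
    (hQ : ∀ i, L.T.σ (tc L g (c i)) = tc L g (c i)) {Γ : Subgroup L.G}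
    {k : ℕ} {y : Fin k → Fin 6 → ℤ} (hy : LinearIndependent ℤ y)
    (h1 : ∀ j r, (∀ i, rv cE6 (c i) r = 1) → pr cE6 (y j) (cE6.vec r) = 0)
    (h2 : ∀ y' : Fin 6 → ℤ, (∀ r, (∀ i, rv cE6 (c i) r = 1) → pr cE6 y' (cE6.vec r) = 0) →
      ∀ t : L.Kˣ, tc L g (fun a => t ^ y' a) ∈ Γ) :
    ∃ T : Subgroup X, Tq q z k T ∧ ∀ s ∈ T, ∃ a : Yg L, L.θ a = s ∧ a.1 ∈ Γ ∧
      ∃ e, (∀ r, (∀ i, rv cE6 (c i) r = 1) → rv cE6 e r = 1) ∧ a.1 = tc L g e :=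
  (TK.main hz hQ (.inr h2) hy h1 fun j => h2 _ (h1 j)).imp fun _ h => ⟨h.1, h.2.1⟩

end CF.An
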