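import Cfsg.Agent.An.TK
import Cfsg.Agent.Am.SP

/-! Central tori of centralizers of semisimple elements of `²E₆(q)`. -/

set_option autoImplicit false

namespace CF.An

open Module Function Cfsg.Lie CF.Chev CF.BN CF.ExA CF.E83 Matrix Finset CF.Am

namespace TU

/-- The roots of the centralizer. -/
abbrev Z (m : ℕ) (x : List ℤ) (r : Fin 72) : Prop :=
  (∑ i : Fin 6, x.getD i 0 * tabE6.car i r) % m = 0

/-- The marks. -/
def mk (i : ℕ) : ℕ := [1, 2, 2, 3, 2, 1].getD i 0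

/-- The nodes with a nonzero label. -/
def nz (s : List ℕ) : List ℕ := (List.range 6).filter fun i => s.getD i 0 != 0

/-- Cocharacters of the centre of the centralizer. -/
def cy (m : ℕ) (s : List ℕ) (j i : ℕ) : ℤ :=
  mk ((nz s).getLastD 0) * gd adE6 ((nz s).getD j 0) i - if ∑ i : Fin 6, mk i * s.getD i 0 = m then
    mk ((nz s).getD j 0) * gd adE6 ((nz s).getLastD 0) i else 0

/-- The certificate. -/
abbrev Ok (m k : ℕ) (s : List ℕ) (x : List ℤ) : Prop :=
  (∀ j : Fin k, ∀ r, Z m x r → ∑ i : Fin 6, cy m s j i * tabE6.car i r = 0) ∧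
    ∀ j l : Fin k, ∑ i : Fin 6, cy m s j i * gd cmE6 i ((nz s).getD l 0) = 0 ↔ j ≠ l

/-- The check. -/
noncomputable abbrev Ch (m k : ℕ) (R : List ℕ → List ℤ → Bool) : Bool :=
  allAlc [1, 2, 2, 3, 2, 1] m (trA adE6 3 fun s x => x.all (· % m == 0) ||
    forceL (x.map (k * ·)) (hsL w27 m (32 ^ ·)) != hsL w27 m (32 ^ ·) x || R s x)

theorem d2 : Ch 2 1 fun s x => #{r | Z 2 x r} != 40 || Ok 2 1 s x := by decide +kernel
theorem d3 : Ch 3 1 fun s x => #{r | Z 3 x r} != 24 || Ok 3 2 s x := by decide +kernel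
theorem d5 : Ch 5 1 fun s x => #{r | Z 5 x r} != 12 || Ok 5 3 s x := by decide +kernel
theorem d7 : Ch 7 2 fun s x => false || Ok 7 2 s x := by decide +kernel
theorem d8 : Ch 7 2 fun s x => #{r | Z 7 x r} != 6 || Ok 7 4 s x := by decide +kernel

/-- Three times a minuscule coweight. -/
def yw (k i : ℕ) : ℤ := ∑ j : Fin 6, gd w27 k j * gd adE6 j i

theorem e1 : ∀ u : Fin 6 → ZMod 2, #{r : Fin 72 | ∑ i, u i * tabE6.car i r = 0} = 40 →
    ∃ k : Fin 27, ∀ i, u i = yw k i := by decide +kernel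

theorem e2 : ∀ (k : Fin 27) (r : Fin 72), ∑ i : Fin 6, (yw k i : ZMod 2) * tabE6.car i r = 0 →
    ∑ i : Fin 6, yw k i * tabE6.car i r = 0 := by decide +kernel

theorem e3 : ∀ k l : Fin 27, k ≠ l → ∃ i j : Fin 6, yw k i * yw l j ≠ yw k j * yw l i := by
  decide +kernel

theorem diag {K V I : Type*} [Field K] [AddCommGroup V] [Module K V] (b : Basis I K V)
    {A A' B : End K V} {a a' c : I → K} (h : ∀ i, A (b i) = a i • b i)
    (h' : ∀ i, A' (b i) = a' i • b i) (hB : ∀ i, B (b i) = c i • b i)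
    (e : ∀ i, a i = 1 → a' i = 1 → c i = 1) : fs A ⊓ fs A' ≤ fs B ∧
      LinearMap.range (B - 1) ≤ LinearMap.range (A - 1) ⊔ LinearMap.range (A' - 1) := by
  have : ∀ i, ∃ u u', c i - 1 = u * (a i - 1) + u' * (a' i - 1) := fun i => by
    by_cases k : a i = 1
    · by_cases k' : a' i = 1
      · exact ⟨0, 0, by simp [e i k k']⟩
      · exact ⟨0, _, by rw [zero_mul, zero_add, div_mul_cancel₀ _ (sub_ne_zero.2 k')]⟩
    · exact ⟨(c i - 1) / _, 0, by rw [zero_mul, add_zero, div_mul_cancel₀ _ (sub_ne_zero.2 k)]⟩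
  choose u u' k using this
  let C : (I → K) → End K V := fun u => b.constr K fun i => u i • b i
  have h1 : ∀ {A : End K V} {a : I → K}, (∀ i, A (b i) = a i • b i) → ∀ i,
    (A - 1) (b i) = (a i - 1) • b i := fun h i => by simp [h, sub_smul]
  have h3 : ∀ u i, C u (b i) = u i • b i := fun u i => by simp [C]
  refine ⟨fun v hv => ?_, ?_⟩
  · rw [fs, show B - 1 = C u * (A - 1) + C u' * (A' - 1) from b.ext fun i => by
      simp only [LinearMap.add_apply, End.mul_apply, h1 h, h1 h', h1 hB, map_smul, h3, k]; module]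
    simp [show (A - 1) v = 0 from hv.1, show (A' - 1) v = 0 from hv.2]
  · rw [show B - 1 = (A - 1) * C u + (A' - 1) * C u' from b.ext fun i => by
      simp only [LinearMap.add_apply, End.mul_apply, h1 h, h1 h', h1 hB, map_smul, h3, k]; module]
    rintro _ ⟨v, rfl⟩
    exact add_mem (Submodule.mem_sup_left ⟨_, rfl⟩) (Submodule.mem_sup_right ⟨_, rfl⟩)

variable {p q z : ℕ} [Fact p.Prime] {X : Type*} [Group X] [Finite X] {L : LS cE6 pE6 p q z X}
  {f : L.G →* GL (Fin 6 ⊕ Fin 72) L.K} {l : X →* End L.K (LA L.K)} {Φ : LA L.K →+ LA L.K}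
  {m k : ℕ} [NeZero m] {ψ : AddChar (ZMod m) L.Kˣ} {g : L.G}

omit [Finite X]

theorem rv_iff (hψ : Injective ψ) (u : Fin 6 → ZMod m) (r : Fin 72) :
    rv cE6 (fun i => ψ (u i)) r = 1 ↔ ∑ i, u i * tabE6.car i r = 0 := by
  simp only [ExA.rv_ψ, ← ψ.map_zero_eq_one, hψ.eq_iff, dz, tabE6'.car]

theorem rv_iff' (hψ : Injective ψ) (u : Fin 6 → ℤ) (r : Fin 72) :
    rv cE6 (fun i => ψ (u i)) r = 1 ↔ Z m (List.ofFn u) r := by
  rw [rv_iff hψ, Z, ← Int.dvd_iff_emod_eq_zero, ← ZMod.intCast_zmod_eq_zero_iff_dvd]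
  simp [-List.ofFn_succ]

variable (L) in
theorem inn : In p L.h (Yg L).subtype :=
  ⟨L.big, Subtype.val_injective, fun x => L.frob.mem_Alg x.2⟩

theorem cop (hm : (m : L.K) ≠ 0) : m.Coprime p :=
  ((Fact.out : p.Prime).coprime_iff_not_dvd.2 fun k => hm ((CharP.cast_eq_zero_iff L.K p m).2 k)).symm

theorem nf (hm : (m : L.K) ≠ 0) {R : List ℕ → List ℤ → Bool} (h : Ch m k R) {y : Yg L}
    (e : y ^ m = 1) (n1 : y ≠ 1) (c : IsConj y (y ^ k)) :
    ∃ (g : L.G) (ψ : AddChar (ZMod m) L.Kˣ) (s : List ℕ) (u : Fin 6 → ℤ), Injective ψ ∧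
      y.1 = tc L g (fun i => ψ (u i)) ∧ R s (List.ofFn u) := by
  obtain ⟨Y, H⟩ := (inn L).exists_coord (cop hm) e
  obtain ⟨a, ha⟩ := isConj_iff.1 c
  obtain ⟨w, hw, h3⟩ := H.conj a.1
  obtain ⟨w, hw, u, s, h3, -, h4⟩ := rat_E6 h (y := Y 1)
    (fun e => n1 (Subtype.ext (by simpa using H.zero_iff.1 e)))
    ⟨w, hw, (h3 1 k (by simpa using congrArg Subtype.val ha)).trans (H.smul (by simp))⟩
  obtain ⟨g, ψ, h6, h7⟩ := H.W hw
  exact ⟨g, ψ, _, u, h6, by simpa [h3] using h7 1, h4⟩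

variable (D : Ld L f l Φ)
include D

theorem ad_tc (g : L.G) (c : Fin 6 → L.Kˣ) (a : Fin 6 ⊕ Fin 72) :
    X3.Ad f (tc L g c) ((Pi.basisFun L.K _).map
      (LinearMap.GeneralLinearGroup.toLinearEquiv ((X3.Ad f).toHomUnits g)) a) =
    (a.elim (fun _ => 1) fun r => (rv cE6 c r : L.K)) • (Pi.basisFun L.K _).map
      (LinearMap.GeneralLinearGroup.toLinearEquiv ((X3.Ad f).toHomUnits g)) a := by
  rw [Basis.map_apply]
  change X3.Ad f _ (X3.Ad f g _) = _ • X3.Ad f g _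
  rw [Classical.rep_conj_apply _ rfl, X3.ad_bv L.h D.hf, map_smul]

theorem dm_tc [DecidableEq L.K] {y : Yg L} {c : Fin 6 → L.Kˣ} (e : y.1 = tc L g c) :
    dm l (L.θ y) = 6 + #{r | rv cE6 c r = 1} := by
  rw [dm, D.eq, ← dm, e, Al.dm_conj (isConj_iff.2 ⟨g, rfl⟩).symm, X3.dm_tor L.h D.hf]

omit D in
theorem ne_one {x : X} {n : ℕ} (d : dm l x = n) (hn : n ≠ 78) : x ≠ 1 := by
  rintro rfl
  rw [Al.dm_one] at d
  exact hn (by simpa using d.symm)

variable [Finite X] (hz : z = Nat.gcd 3 (q + 1))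
include hz

theorem fam {a b : Yg L} {c : Bool → Fin 6 → L.Kˣ} (ha : a.1 = tc L g (c true))
    (hb : b.1 = tc L g (c false)) {y : Fin k → Fin 6 → ℤ} (hy : LinearIndependent ℤ y)
    (h1 : ∀ j r, (∀ i, rv cE6 (c i) r = 1) → pr cE6 (y j) (cE6.vec r) = 0) :
    ∃ T, Tq q z k T ∧ ∀ s ∈ T, (∃ (u : Yg L) (e : _), L.θ u = s ∧ u.1 = tc L g e ∧
      ∀ r, (∀ i, rv cE6 (c i) r = 1) → rv cE6 e r = 1) ∧ Commute s (L.θ a) ∧ Commute s (L.θ b) ∧
      fs (l (L.θ a)) ⊓ fs (l (L.θ b)) ≤ fs (l s) ∧ LinearMap.range (l s - 1) ≤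
        LinearMap.range (l (L.θ a) - 1) ⊔ LinearMap.range (l (L.θ b) - 1) := by
  obtain ⟨T, h3, h4, -⟩ := exists_tk hz (L := L) (g := g) (c := c)
    (by rintro (_ | _); exacts [hb ▸ b.2, ha ▸ a.2]) (Γ := ⊤) (fun _ _ => trivial) hy h1
    fun _ _ => trivial
  refine ⟨T, h3, fun s hs => ?_⟩
  obtain ⟨u, rfl, -, e, h6, h7⟩ := h4 s hs
  have h5 : ∀ {a : Yg L} {c}, a.1 = tc L g c → Commute (L.θ u) (L.θ a) := fun {a c} ha =>
    Commute.map (Subtype.ext (by
      rw [Subgroup.coe_mul, Subgroup.coe_mul, ha, h7, conj_mul, conj_mul, ← map_mul, ← map_mul,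
        mul_comm])) _
  refine ⟨⟨u, e, rfl, h7, h6⟩, h5 ha, h5 hb, ?_⟩
  rw [D.eq, D.eq, D.eq, ha, hb, h7]
  refine diag _ (ad_tc D g _) (ad_tc D g _) (ad_tc D g _) ?_
  rintro (i | r) k k'
  · rfl
  · exact Units.val_eq_one.2 (h6 r (by rintro (_ | _); exacts [Units.ext k', Units.ext k]))

theorem core (hm : (m : L.K) ≠ 0) {P : ℕ → Bool} {j : ℕ}
    (h : Ch m j fun s x => P #{r | Z m x r} || Ok m k s x) {y : Yg L} (e : y ^ m = 1)
    (n1 : L.θ y ≠ 1) (c : IsConj y (y ^ j)) (d : ∀ n, dm l (L.θ y) = 6 + n → P n = false) :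
    ∃ T, Tq q z k T ∧ Zs l (L.θ y) T ∧ ∀ a : Yg L, Commute a y → ∀ s ∈ T, Commute (L.θ a) s := by
  classical
  obtain ⟨g, ψ, s, u, hψ, h1, h2⟩ := nf hm h e (fun k => n1 (by rw [k, map_one])) c
  rw [d _ ((dm_tc D h1).trans (by simp only [rv_iff' hψ]))] at h2
  simp only [Bool.false_or, decide_eq_true_eq] at h2
  obtain ⟨T, h3, h4⟩ := fam D hz (c := fun _ i => ψ (u i)) h1 h1
    (y := fun (j : Fin k) i => cy m s j i) (Fintype.linearIndependent_iff.2 fun a ha j => by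
      have := congrArg (fun v : Fin 6 → ℤ => ∑ i, v i * gd cmE6 i ((nz s).getD j 0)) ha
      simp only [Finset.sum_apply, Pi.smul_apply, smul_eq_mul, sum_mul, mul_assoc, Pi.zero_apply,
        zero_mul, sum_const_zero] at this
      rw [sum_comm, sum_eq_single j (fun i _ k => by rw [← mul_sum, (h2.2 i j).2 k, mul_zero])
        (by simp), ← mul_sum, mul_eq_zero] at this
      exact this.resolve_right fun k => (h2.2 j j).1 k rfl)
    fun j r hr => by
      simpa only [pr_vec, tabE6'.car] using h2.1 j r ((rv_iff' hψ u r).1 (hr true))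
  refine ⟨T, h3, ⟨fun s hs => (h4 s hs).2.1, fun s hs => by simpa using (h4 s hs).2.2.2.1,
    fun s hs => by simpa using (h4 s hs).2.2.2.2⟩, fun a ha s hs => ?_⟩
  obtain ⟨b, c, rfl, h7, h6⟩ := (h4 s hs).1
  refine Commute.map (Subtype.ext ?_) _
  have := (cent_le L.h (c := fun i => ψ (u i)) (isOfFinOrder_iff_pow_eq_one.2
    ⟨m, NeZero.pos m, funext fun i => by
      rw [Pi.pow_apply, ← ψ.map_nsmul_eq_pow, nsmul_eq_mul, ZMod.natCast_self, zero_mul,
        ψ.map_zero_eq_one]; rfl⟩) (fun r hr => h6 r fun _ => hr) (g := g⁻¹ * a * g) (by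
    simpa [h1, mul_assoc] using ha.map ((MulAut.conj g⁻¹).toMonoidHom.comp (Yg L).subtype))).map
      (MulAut.conj g)
  simpa [h7, mul_assoc] using this.eq

theorem two (h2 : (2 : L.K) ≠ 0) {a b : Yg L} (ha : a ^ 2 = 1) (hb : b ^ 2 = 1) (c : Commute a b)
    (da : dm l (L.θ a) = 46) (db : dm l (L.θ b) = 46) (n : a ≠ b) :
    ∃ T, Tq q z 2 T ∧ ∀ s ∈ T, Commute s (L.θ a) ∧ Commute s (L.θ b) ∧
      fs (l (L.θ a)) ⊓ fs (l (L.θ b)) ≤ fs (l s) ∧ LinearMap.range (l s - 1) ≤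
        LinearMap.range (l (L.θ a) - 1) ⊔ LinearMap.range (l (L.θ b) - 1) := by
  classical
  have : Finite (Yg L) := L.frob.finite
  have hp : Nat.Coprime 2 p := cop (by simpa using h2)
  obtain ⟨Y, g, ψ, hψ, H⟩ := Toral.coord L.h hp (φ := fun v : Bool => bif v then a.1 else b.1)
    (((inn L).toral_pair c (hp.coprime_dvd_left (orderOf_dvd_of_pow_eq_one hb)) Nat.prime_two
      (by rintro rfl; simp at hp) (a := 1) ha).mono (by rintro _ ⟨_ | _, rfl⟩ <;> simp))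
    (by rintro (_ | _); exacts [congrArg Subtype.val hb, congrArg Subtype.val ha])
  have h1 : ∀ {a : Yg L} {v}, a.1 = tc L g (fun i => ψ (Y v i)) → dm l (L.θ a) = 46 →
      ∃ k : Fin 27, ∀ i, Y v i = yw k i := fun e d => e1 _ (by
    rw [dm_tc D e] at d
    simp only [rv_iff hψ] at d
    convert Nat.add_left_cancel (k := 40) d)
  obtain ⟨i, hi⟩ := h1 (H true) da
  obtain ⟨j, hj⟩ := h1 (H false) db
  obtain ⟨u, v, h3⟩ := e3 i j (by
    rintro rfl
    exact n (Subtype.ext ((H true).trans ((by simp only [hi, hj]) : _ = _) |>.trans (H false).symm)))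
  obtain ⟨T, h4, h5⟩ := fam D hz (c := fun v i => ψ (Y v i)) (H true) (H false)
    (y := ![fun a => yw i a, fun a => yw j a]) (LinearIndependent.pair_iff.2 fun s t e => by
      have a := congrFun e u
      have b := congrFun e v
      simp only [Pi.add_apply, Pi.smul_apply, smul_eq_mul, Pi.zero_apply] at a b
      exact ⟨(mul_eq_zero.1 (by linear_combination yw j v * a - yw j u * b)).resolve_right
        (sub_ne_zero.2 h3), (mul_eq_zero.1 (by linear_combination yw i u * b - yw i v * a)).resolve_right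
        (sub_ne_zero.2 h3)⟩) fun k r hr => by
      have a := (rv_iff hψ _ r).1 (hr true)
      have b := (rv_iff hψ _ r).1 (hr false)
      simp only [hi, hj] at a b
      rw [pr_vec]
      simp only [tabE6'.car]
      fin_cases k
      exacts [e2 i r a, e2 j r b]
  exact ⟨T, h4, fun s hs => (h5 s hs).2⟩

end TU

open TU

variable {p q z : ℕ} [Fact p.Prime] {X : Type*} [Group X] [Finite X] {L : LS cE6 pE6 p q z X}
  {f : L.G →* GL (Fin 6 ⊕ Fin 72) L.K} {l : X →* End L.K (LA L.K)} {Φ : LA L.K →+ LA L.K}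
  (hz : z = Nat.gcd 3 (q + 1))
include hz

theorem tu (D : Ld L f l Φ) : TV q z l := by
  have : Finite (Yg L) := L.frob.finite
  have E := ce L hz
  refine ⟨fun h x e d => ?_, fun h x e r d => ?_, fun h x e _ d => ?_, fun h x e n c => ?_,
    fun h x y e e' c d d' d'' => ?_⟩
  · obtain ⟨y, rfl, h1, -, h2⟩ := cop_lift E (by decide) e
    obtain ⟨T, h3, h4, h5⟩ := core D hz (m := 2) (by simpa) (P := (· != 40)) d2 h1
      (ne_one d (by decide)) (by rw [pow_one]) fun n k => by simp; omega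
    refine ⟨T, h3, h4, fun g c => ?_⟩
    obtain ⟨g, rfl⟩ := E.surj g
    exact h5 g (h2 g c)
  · obtain ⟨y, rfl, h1, -⟩ := real_lift E e r
    exact (core D hz (m := 3) (by simpa) (P := (· != 24)) d3 h1 (ne_one d (by decide))
      (by rw [pow_one]) fun n k => by simp; omega).imp fun _ h => ⟨h.1, h.2.1⟩
  · obtain ⟨y, rfl, h1, -⟩ := cop_lift E (by decide) e
    exact (core D hz (m := 5) (by simpa) (P := (· != 12)) d5 h1 (ne_one d (by decide))
      (by rw [pow_one]) fun n k => by simp; omega).imp fun _ h => ⟨h.1, h.2.1⟩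
  · obtain ⟨y, rfl, h1, h2, -⟩ := cop_lift E (by decide) e
    exact ⟨(core D hz (m := 7) (by simpa) (P := fun _ => false) d7 h1 n (h2 2 c)
      fun _ _ => rfl).imp fun _ h => ⟨h.1, h.2.1⟩, fun d => (core D hz (m := 7) (by simpa)
        (P := (· != 6)) d8 h1 n (h2 2 c) fun n k => by simp; omega).imp fun _ h => ⟨h.1, h.2.1⟩⟩
  · obtain ⟨a, rfl, h1, -⟩ := cop_lift E (by decide) e
    obtain ⟨b, rfl, h2, -, h3⟩ := cop_lift E (by decide) e'
    exact two D hz h h1 h2 (h3 a c) d d' (by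
      rintro rfl
      exact ne_one d'' (by decide) (by rw [← sq, e]))

end CF.An
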