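import Cfsg.Agent.Am.V6a
import Cfsg.Agent.An.WP
import Cfsg.Agent.Am.CG

/-! The four-group of `A₆` in characteristic three, twisted case. -/

set_option autoImplicit false

namespace CF.An

open Module Function Cfsg.Lie CF.E83 CF.Al CF.Am CF.Chev CF.BN CF.ExA Matrix

theorem V6.c1 : ∀ r ∈ ({1, 2, 22, 35} : Finset (Fin 72)), ∀ k, ∑ i, V6.Y k i * tabE6.car i r = 0 := by
  decide +kernel

theorem V6.c2 : ∀ i : Fin 6, tabE6.car i 1 = ![0, 1, 0, -1, 0, 0] i ∧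
    tabE6.car i 2 = ![0, 0, -1, 1, -1, 0] i ∧ tabE6.car i 22 = ![0, -1, 1, 0, 0, -1] i ∧
    tabE6.car i 35 = ![0, 0, 0, 0, 1, -2] i := by decide +kernel

theorem V6.sp {K : Type*} [Field K] (y : Fin 6 → ℤ)
    (h : ∀ r, (∀ k, rv cE6 (fun i => (-1 : Kˣ) ^ V6.Y k i) r = 1) → pr cE6 y (cE6.vec r) = 0) :
    ∃ a : Fin 2 → ℤ, (3 : ℤ) • y = ∑ j, a j • V6.Y j := by
  simp only [rv_zp, pr_vec, tabE6'.car] at h
  have k := fun r m => h r fun k => by rw [V6.c1 r m k, zpow_zero]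
  have h1 := k 1 (by simp)
  have h2 := k 2 (by simp)
  have h3 := k 22 (by simp)
  have h4 := k 35 (by simp)
  simp [V6.c2, Fin.sum_univ_six] at h1 h2 h3 h4
  refine ⟨![3 * y 1, -3 * y 0], funext fun i => ?_⟩
  fin_cases i <;> simp [V6.Y] <;> omega

variable {p q z : ℕ} [Fact p.Prime] {X : Type*} [Group X] [Finite X] {L : LS cE6 pE6 p q z X}
  {R R' : L.G →* End L.K (N L.K)} {ε : ℤ} {H : Subgroup X} (hz : z = Nat.gcd 3 (q + 1))
include hz

theorem v6 (hp : p = 3) (hq : 9 ≤ q) {j : An 6 →* X} (M : Mx H j) {j' : An 6 →* Yg L}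
    (hj : ∀ g, L.θ (j' g) = j g) (S : Sd L R R' ε)
    (d : ∀ t, t ^ 2 = 1 → t ≠ 1 → dm ((rY L R).comp j') t = 15) :
    WP ((rY L R).comp j') ∧ V4 ((rY L R).comp j') ((rY L R').comp j') s6 t6 := by
  subst hp
  have h2 : (2 : L.K) ≠ 0 := fun e => by
    have := (CharP.cast_eq_zero_iff L.K 3 2).1 (by simpa using e)
    omega
  have : Finite (Yg L) := L.frob.finite
  have E : In 3 L.h (Yg L).subtype := ⟨L.big, Subtype.val_injective, fun x => L.frob.mem_Alg x.2⟩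
  have s2 : s6 ^ 2 = 1 := by decide
  have t2 : t6 ^ 2 = 1 := by decide
  have sq : ∀ u : An 6, u ^ 2 = 1 → j' u ^ 2 = 1 := fun u e => by rw [← map_pow, e, map_one]
  obtain ⟨g, e0, e1⟩ := V6.nf L.h S.tor h2 S.sg (E.toral_pair (x := j' s6) (y := j' t6)
    ((show Commute s6 t6 from show s6 * t6 = t6 * s6 by decide).map j') (.coprime_dvd_left (orderOf_dvd_of_pow_eq_one (sq _ t2))
    (by norm_num)) Nat.prime_two (by norm_num) (a := 1) (sq _ s2))
    (congrArg Subtype.val (sq _ s2)) (congrArg Subtype.val (sq _ t2)) (d s6 s2 (by decide))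
    (d t6 t2 (by decide)) (by
      have := d (s6 * t6) (by decide) (by decide)
      rw [dm, MonoidHom.comp_apply, map_mul] at this
      exact this)
  have hQ : ∀ i, (j' (![s6, t6] i)).1 = tc L g fun a => (-1) ^ V6.Y i a :=
    Fin.forall_fin_two.2 ⟨e0, e1⟩
  have sm : ∀ T ≤ H, (∀ s ∈ T, ∀ i, Commute s (j (![s6, t6] i))) → ¬ Tk q z 2 T := fun T le c k => by
    have h1 := cenV M le fun s hs => ⟨c s hs 0, c s hs 1⟩
    have h3 : z ≤ 3 := hz ▸ Nat.gcd_le_left _ (by norm_num)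
    have h4 := k.le.trans (Nat.mul_le_mul h3 h1)
    have h5 : 8 ^ 2 ≤ (q - 1) ^ 2 := Nat.pow_le_pow_left (by omega) 2
    omega
  have cj : ∀ (R : L.G →* End L.K (N L.K)) c, R (tc L g c) * R g = R g * R (L.h.r3.tor c) :=
    fun R c => by rw [← map_mul, ← map_mul, inv_mul_cancel_right]
  refine ⟨wp_of hz (by norm_num) M hj S hQ V6.li (V6.orth h2) V6.sp
    (fun v hv e => V6.pure L.h S.tor h2 S.sg hv e) sm, R g, R' g, S.jp g, ?_, ?_, ?_, ?_,
    fun U hU k => ?_⟩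
  · rw [← (V6.dg0 L.h S.tor S.sg).1, ← cj, ← hQ 0]; rfl
  · rw [← (V6.dg0 L.h S.tor S.sg).2, ← cj, ← hQ 1]; rfl
  · rw [← (V6.dg0 L.h S.tor' S.symm.sg).1, ← cj, ← hQ 0]; rfl
  · rw [← (V6.dg0 L.h S.tor' S.symm.sg).2, ← cj, ← hQ 1]; rfl
  by_contra n
  obtain ⟨T, le, tk, c⟩ := no_torN hz M S.symm (fun e => n (.inl e)) (fun e => n (.inr e))
    (can_N hz (by norm_num) M hj hU) hQ V6.li (V6.orth h2) V6.sp fun i t v hv => by
      obtain ⟨w, rfl⟩ := (S.jp g).symm.bij.2 v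
      rw [← End.mul_apply, cj, V6.act_dg L.h S.tor']
      refine k _ ?_ w hv
      rw [← _root_.zpow_add, ← _root_.zpow_add]
      fin_cases i <;> simp [V6.E]
  exact sm T le (fun s hs i => hj _ ▸ c s hs i) tk.1

end CF.An
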