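import Cfsg.Agent.An.A

/-! Fixed vectors of rational elements of order eleven are white. -/

set_option autoImplicit false

namespace CF.An

open Module Function Cfsg.Lie CF.E83 CF.Al CF.Am CF.Chev CF.BN CF.ExA Matrix Finset
open CF.Geom.E6 (wt p1 p2 ep)

namespace W11

/-- The weights of a torus element. -/
def ew (x : Fin 6 → ℤ) (a : I27) : ZMod 11 := ∑ i, (x i : ZMod 11) * wt a i

theorem d1 : allAlc [1, 2, 2, 3, 2, 1] 11 (trA adE6 3 fun _ x => x.all (· % (11 : ℕ) == 0) ||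
    forceL (x.map ((3 : ℕ) * ·)) (hsL ExA.w27 11 (32 ^ ·)) != hsL ExA.w27 11 (32 ^ ·) x ||
      decide (x = [7, 10, 13, 19, 14, 8] ∨ x = [8, 10, 14, 19, 13, 7])) := by
  decide +kernel

theorem d2 {x : Fin 6 → ℤ}
    (h : List.ofFn x = [7, 10, 13, 19, 14, 8] ∨ List.ofFn x = [8, 10, 14, 19, 13, 7]) :
    ∀ c n, ew x (p1 c n) ≠ 0 ∨ ew x (p2 c n) ≠ 0 := by
  rcases h with h | h
  · obtain rfl : x = ![7, 10, 13, 19, 14, 8] := List.ofFn_injective h
    decide +kernel
  · obtain rfl : x = ![8, 10, 14, 19, 13, 7] := List.ofFn_injective h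
    decide +kernel

end W11

variable {p q z : ℕ} [Fact p.Prime] {X : Type*} [Group X] [Finite X] {L : LS cE6 pE6 p q z X}
  {R R' : L.G →* End L.K (N L.K)} {ε : ℤ}

omit [Finite X] in
open W11 in
theorem w11 (hp : p ≠ 11) (S : Sd L R R' ε) {x : Yg L} (e : x ^ 11 = 1) (n1 : x ≠ 1)
    (c : IsConj x (x ^ 3)) (v : N L.K) (hv : R x v = v) : sh v = 0 := by
  obtain ⟨Y, C⟩ := (in_top L).exists_coord (m := 11)
    ((Nat.coprime_primes (by decide) Fact.out).2 hp.symm) e
  obtain ⟨u, hu⟩ := isConj_iff.1 c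
  obtain ⟨w, hw, h3⟩ := C.conj u.1
  obtain ⟨w, hw, y, s, h3, -, h4⟩ := rat_E6 (m := 11) (k := 3) d1 (y := Y 1)
    (fun k => n1 (Subtype.ext (by simpa using C.zero_iff.1 k)))
    ⟨w, hw, (h3 1 3 (by simpa using congrArg Subtype.val hu)).trans (C.smul (by simp))⟩
  obtain ⟨g, ψ, h6, h7⟩ := C.W hw
  replace h7 := h7 1
  simp only [pow_one, h3, Subgroup.subtype_apply] at h7
  obtain ⟨v, rfl⟩ : ∃ v', v = R g v' :=
    ⟨R g⁻¹ v, by rw [← End.mul_apply, ← map_mul, mul_inv_cancel, map_one, End.one_apply]⟩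
  have h8 : R (L.h.r3.tor fun i => ψ (y i)) v = v := by
    have := congrArg (R g⁻¹) hv
    simpa [h7, ← End.mul_apply, ← map_mul, mul_assoc] using this
  have h9 : ∀ a, ew y a ≠ 0 → v a = 0 := fun a ha => by
    have k := congrFun h8 a
    conv_lhs at k => rw [pi_eq_sum_univ' v, map_sum]
    simp only [map_smul, S.tor, Finset.sum_apply, Pi.smul_apply, Pi.single_apply, smul_eq_mul, mul_ite,
      mul_one, mul_zero, sum_ite_eq, mem_univ, if_true] at k
    by_contra h
    have k2 : ψ (ε * ew y a) = ψ 0 := by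
      rw [ψ.map_zero_eq_one, ← Units.val_inj.1 ((mul_left_cancel₀ h (k.trans (mul_one _).symm)).trans
        Units.val_one.symm), ew, mul_sum]
      simp only [← AddChar.map_zsmul_eq_zpow, zsmul_eq_mul, Int.cast_mul]
      refine (map_prod ψ.toMonoidHom (fun i => .ofAdd ((ε : ZMod 11) * (y i * wt a i))) _).trans ?_
      exact prod_congr rfl fun i _ => congrArg ψ (show (ε : ZMod 11) * (y i * wt a i) = _ by ring)
    have := h6 k2
    rcases S.sg with rfl | rfl <;> exact ha (by simpa using this)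
  rw [(S.jp g).s1, show sh v = 0 from funext fun c => ?_, map_zero]
  rw [sh, Geom.E6.Q]
  refine sum_eq_zero fun n _ => ?_
  rcases d2 (of_decide_eq_true h4) c n with k | k <;> simp [h9 _ k]

end CF.An
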