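import Cfsg.Agent.An.WP
import Cfsg.Agent.Am.W7

/-! White submodules for `A₇` in characteristic three, twisted case. -/

set_option autoImplicit false

namespace CF.An

open Module Function Cfsg.Lie CF.E83 CF.Al CF.Am CF.Chev CF.BN CF.ExA Matrix Finset
open CF.Geom.E6 (wt)

namespace W7

theorem sp {y : Fin 6 → ℤ} (h : ∀ r : Fin 72, (∑ i, (Am.W7.x0 i : ZMod 7) * tabE6.car i r) = 0 →
    pr cE6 y (cE6.vec r) = 0) : ∃ a : Fin 4 → ℤ, (3 : ℤ) • y = ∑ j, a j • Am.W7.ys j := by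
  have k : ∀ i : Fin 6, (i = 1 ∨ i = 3) → ∑ j, y j * gd cmE6 j i = 0 := fun i hi => by
    have := h (cE6.simple i) (by rcases hi with rfl | rfl <;> decide +kernel)
    simpa only [pr_vec, cE6.A_simple_simple, carE6', gd] using this
  have h1 := k 1 (.inl rfl)
  have h3 := k 3 (.inr rfl)
  refine ⟨![2 * y 0 - y 2, 2 * y 2 - y 0 - y 3, 2 * y 4 - y 3 - y 5, 2 * y 5 - y 4], funext fun i => ?_⟩
  simp [Fin.sum_univ_six, gd, cmE6] at h1 h3
  fin_cases i <;> simp [Fin.sum_univ_four, Am.W7.ys] <;> omega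

variable {p q z : ℕ} [Fact p.Prime] {X : Type*} [Group X] {L : LS cE6 pE6 p q z X}
  {R R' : L.G →* End L.K (N L.K)} {ε : ℤ}

theorem diag (S : Sd L R R' ε) (c : Fin 6 → L.Kˣ) (v : N L.K) (a : I27) :
    R (L.h.r3.tor c) v a = ((∏ i, c i ^ (ε * wt a i) : L.Kˣ) : L.K) * v a := by
  conv_lhs => rw [pi_eq_sum_univ' v, map_sum]
  simp [S.tor, Pi.single_apply, mul_comm]

theorem fx3 (S : Sd L R R' ε) : ∃ P, ExA.Rep L.h P ∧ ∀ g, ExA.fx P g = dm R g := by
  rcases S.sg with rfl | rfl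
  · exact ⟨R, fun c a => by simpa using S.tor c a, fun g => by rw [dm, (fs_eig _).1, ExA.fx]⟩
  · exact ⟨R', fun c a => by simpa using S.tor' c a, fun g => by
      rw [← S.jp.dm_eq, dm, (fs_eig _).1, ExA.fx]⟩

end W7

variable {p q z : ℕ} [Fact p.Prime] {X : Type*} [Group X] [Finite X] {L : LS cE6 pE6 p q z X}
  {R R' : L.G →* End L.K (N L.K)} {ε : ℤ} {H : Subgroup X} (hz : z = Nat.gcd 3 (q + 1))
include hz

open W7 Am.W7 in
theorem w7 (hp : p = 3) {j : An 7 →* X} (M : Mx H j) {j' : An 7 →* Yg L} (hj : ∀ g, L.θ (j' g) = j g)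
    (S : Sd L R R' ε) (d : dm ((rY L R).comp j') (C3.T * C3.U) = 3) : WP ((rY L R).comp j') := by
  have hx : j' (C3.T * C3.U) ^ 7 = 1 := by rw [← map_pow, C3.W7, map_one]
  obtain ⟨Y, C⟩ := (in_top L).exists_coord (m := 7) (by rw [hp]; decide) hx
  obtain ⟨u, hu⟩ := isConj_iff.1 C3.cW2
  obtain ⟨w, hw, h3⟩ := C.conj (j' u).1
  obtain ⟨w, hw, x, s, h3, -, h4⟩ := rat_E6 (m := 7) (k := 2) d1 (y := Y 1) (fun e => C3.W1 (M.inj (by
    have : j' (C3.T * C3.U) = 1 := Subtype.ext (by simpa using C.zero_iff.1 e)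
    rw [← hj, this, map_one, map_one])))
    ⟨w, hw, (h3 1 2 (by simpa using congrArg (fun g => (j' g).1) hu)).trans (C.smul (by simp))⟩
  obtain ⟨P, hP, e⟩ := W7.fx3 S
  have h5 := hP.coord (C.W hw) 1
  obtain ⟨g, ψ, h6, h7⟩ := C.W hw
  replace h7 := h7 1
  simp only [pow_one, h3] at h5 h7
  rw [decide_eq_true_eq, ← nz_wts, ← h5, e] at h4
  obtain rfl : x = x0 := List.ofFn_injective (h4 d)
  refine wp_of hz (by decide) M hj S (I := Unit) (g := g) (c := fun _ i => ψ (x0 i)) (Q := fun _ => C3.T * C3.U)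
    (fun _ => h7) ind (fun k r h => ?_) (fun y h => W7.sp fun r e => h r fun _ => ?_) (fun v hv h k t => ?_) fun T le c k => ?_
  · have := h ()
    rw [ExA.rv_ψ, ← ψ.map_zero_eq_one, h6.eq_iff] at this
    simp only [pr_vec, dz, tabE6'.car] at this ⊢
    exact d2 k r this
  · rw [ExA.rv_ψ, ← ψ.map_zero_eq_one, h6.eq_iff]
    simpa only [dz, tabE6'.car] using e
  · obtain ⟨μ, hμ⟩ := h ()
    have h8 : ∀ a, v a ≠ 0 → (ψ (ε * ew a) : L.K) = μ := fun a ha => mul_right_cancel₀ ha (by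
      rw [← smul_eq_mul μ, ← Pi.smul_apply μ, ← hμ, W7.diag S, ew, mul_sum]
      congr 2
      simp only [← AddChar.map_zsmul_eq_zpow, zsmul_eq_mul, Int.cast_mul]
      refine (map_prod ψ.toMonoidHom (fun i => .ofAdd ((ε : ZMod 7) * (x0 i * wt a i))) _).trans ?_
      exact prod_congr rfl fun i _ => congrArg ψ (show (ε : ZMod 7) * (x0 i * wt a i) = _ by ring))
    have h9 : ∀ a b, v a ≠ 0 → v b ≠ 0 → ew a = ew b := fun a b ha hb => by
      have := h6 (Units.ext ((h8 a ha).trans (h8 b hb).symm))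
      rcases S.sg with rfl | rfl <;> simpa using this
    by_cases v0 : v = 0
    · exact ⟨0, by simp [v0]⟩
    obtain ⟨a, ha⟩ := Function.ne_iff.1 v0
    refine ⟨(t ^ (ε * ∑ i, ys k i * wt a i) : L.Kˣ), funext fun b => ?_⟩
    by_cases hb : v b = 0
    · simp [W7.diag S, hb]
    rw [W7.diag S, pure hv h9 ha hb, Pi.smul_apply, smul_eq_mul, mul_sum, zpow_sum']
    simp only [← _root_.zpow_mul, mul_left_comm ε]
  · have h8 := cen7 M le C3.W7 C3.W1 fun s hs => c s hs ()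
    obtain ⟨m, h9, h10⟩ := L.pow
    obtain ⟨m, rfl⟩ : ∃ n, m = n + 1 := ⟨m - 1, by omega⟩
    have h11 : z = 1 := by
      rw [hz, h10, hp, pow_succ]
      have : 0 < 3 ^ m := by positivity
      exact (Nat.Prime.coprime_iff_not_dvd Nat.prime_three).2 (by omega)
    have h12 := k.le
    have h13 : 2 ^ 4 ≤ (q - 1) ^ 4 := Nat.pow_le_pow_left (by
      have : 0 < 3 ^ m := by positivity
      rw [h10, hp, pow_succ]; omega) 4
    rw [h11] at h12
    omega

end CF.An
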